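import Mathlib

/-!
# Characters of an abelian `p`-group acted on by a `p'`-group and a `p`-group.
-/

set_option autoImplicit false
set_option linter.unusedSectionVars false

namespace Cfsg.Agent.Lib.TwoPrimes

universe u

section Dual

variable {M : Type u} [CommGroup M] {B A : Type*} [Group B] [Fintype B] [Group A]

/-- Averaging a dual element. -/
noncomputable def tauD (f : B →* MulAut M) (ψ : M →* ℂˣ) : M →* ℂˣ :=
  ∏ b : B, ψ.comp (f b : M ≃* M).toMonoidHom

theorem tauD_apply (f : B →* MulAut M) (ψ : M →* ℂˣ) (m : M) : tauD f ψ m = ∏ b : B, ψ (f b m) := by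
  unfold tauD
  rw [MonoidHom.finset_prod_apply]
  rfl

/-- The projection to the `[M̂, B]`-part, up to the power `|B|`. -/
noncomputable def kapD (f : B →* MulAut M) : (M →* ℂˣ) →* (M →* ℂˣ) :=
  MonoidHom.mk' (fun ψ => ψ ^ Fintype.card B * (tauD f ψ)⁻¹) (fun ψ ψ' => by
    ext m
    simp only [MonoidHom.mul_apply, MonoidHom.inv_apply, MonoidHom.pow_apply, tauD_apply, mul_pow,
      Finset.prod_mul_distrib, mul_inv]
    rw [mul_mul_mul_comm])

theorem kapD_apply (f : B →* MulAut M) (ψ : M →* ℂˣ) (m : M) :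
    kapD f ψ m = ψ m ^ Fintype.card B * (∏ b : B, ψ (f b m))⁻¹ := by
  show (ψ ^ Fintype.card B * (tauD f ψ)⁻¹) m = _
  rw [MonoidHom.mul_apply, MonoidHom.inv_apply, MonoidHom.pow_apply, tauD_apply]

/-- The average is fixed. -/
theorem tauD_fix (f : B →* MulAut M) (ψ : M →* ℂˣ) (b₀ : B) (m : M) : tauD f ψ (f b₀ m) = tauD f ψ m := by
  rw [tauD_apply, tauD_apply]
  refine Fintype.prod_equiv (Equiv.mulRight b₀) _ _ (fun b => ?_)
  rw [Equiv.coe_mulRight, map_mul]
  rfl

/-- Values at fixed points vanish. -/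
theorem kapD_of_fixed (f : B →* MulAut M) (ψ : M →* ℂˣ) {c : M} (hc : ∀ b, f b c = c) : kapD f ψ c = 1 := by
  rw [kapD_apply]
  simp only [hc, Finset.prod_const, Finset.card_univ]
  simp

/-- The map vanishes on fixed characters. -/
theorem kapD_eq_one_of_fix (f : B →* MulAut M) {ν : M →* ℂˣ} (hν : ∀ b m, ν (f b m) = ν m) : kapD f ν = 1 := by
  ext m
  rw [kapD_apply]
  simp only [hν, Finset.prod_const, Finset.card_univ]
  simp

/-- The product over the conjugates vanishes. -/
theorem prod_kapD (f : B →* MulAut M) (ψ : M →* ℂˣ) (m : M) : ∏ b : B, kapD f ψ (f b m) = 1 := by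
  simp only [kapD_apply]
  have h5 : ∀ b : B, ∏ b' : B, ψ (f b' (f b m)) = ∏ b' : B, ψ (f b' m) := by
    intro b
    have := tauD_fix f ψ b m
    rwa [tauD_apply, tauD_apply] at this
  simp only [h5, Finset.prod_mul_distrib, Finset.prod_pow, Finset.prod_const, Finset.card_univ, inv_pow]
  simp

/-- The iterated map. -/
theorem kapD_kapD (f : B →* MulAut M) (ψ : M →* ℂˣ) (m : M) :
    kapD f (kapD f ψ) m = (kapD f ψ m) ^ Fintype.card B := by
  rw [kapD_apply, prod_kapD]
  simp

/-- Equivariance of the map. -/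
theorem kapD_comp (f : B →* MulAut M) (g : M ≃* M) (σ : B ≃ B) (hσ : ∀ b m, g (f b m) = f (σ b) (g m))
    (ψ : M →* ℂˣ) : (kapD f ψ).comp g.toMonoidHom = kapD f (ψ.comp g.toMonoidHom) := by
  ext m
  simp only [MonoidHom.comp_apply, kapD_apply]
  congr 3
  refine Fintype.prod_equiv σ.symm _ _ (fun b => ?_)
  have h1 := hσ (σ.symm b) m
  rw [Equiv.apply_symm_apply] at h1
  show ψ (f b (g m)) = ψ (g (f (σ.symm b) m))
  rw [h1]

variable [Finite M] {p : ℕ} [hp : Fact p.Prime]

/-- A character of `M` that is `A`-invariant, but not `B`-invariant, and trivial on `C_M(B)`. -/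
theorem exists_dual_char (hM : IsPGroup p M) [Finite A] (hcop : (Nat.card B).Coprime p) (hA : IsPGroup p A)
    (f : B →* MulAut M) (g : A →* MulAut M) (σ : A → B ≃ B)
    (hσ : ∀ a b m, g a (f b m) = f (σ a b) (g a m))
    (hne : ∃ b m, f b m ≠ m) :
    ∃ lam : M →* ℂˣ, (∀ a m, lam (g a m) = lam m) ∧ (∀ c, (∀ b, f b c = c) → lam c = 1) ∧
      ∃ b m, lam (f b m) ≠ lam m := by
  classical
  obtain ⟨k, hk⟩ := IsPGroup.iff_card.mp hM
  have hcopM : (Fintype.card B).Coprime (Nat.card M) := by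
    rw [hk, ← Nat.card_eq_fintype_card]
    exact Nat.Coprime.pow_right _ hcop
  haveI hfin : Finite (M →* ℂˣ) :=
    Finite.of_equiv _ (CommGroup.monoidHom_mulEquiv_of_hasEnoughRootsOfUnity M ℂ).some.symm.toEquiv
  -- every dual element has order dividing `|M|`
  have hpow : ∀ ν : M →* ℂˣ, ν ^ Nat.card M = 1 := by
    intro ν
    apply MonoidHom.ext
    intro m
    rw [MonoidHom.pow_apply, ← map_pow, pow_card_eq_one']
    simp
  have hdualp : ∀ (ν : M →* ℂˣ) (m : M), ν m ^ Fintype.card B = 1 → ν m = 1 := by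
    intro ν m h
    have h1 := orderOf_dvd_of_pow_eq_one h
    have h2 : (ν m) ^ Nat.card M = 1 := by
      rw [← map_pow, pow_card_eq_one']
      simp
    have h3 := orderOf_dvd_of_pow_eq_one h2
    exact orderOf_eq_one_iff.mp (Nat.eq_one_of_dvd_coprimes hcopM h1 h3)
  -- the range is nontrivial
  have hrange : kapD f ≠ 1 := by
    obtain ⟨b, m, hbm⟩ := hne
    have h1 : f b m * m⁻¹ ≠ 1 := fun h => hbm (mul_inv_eq_one.mp h)
    obtain ⟨ψ, hψ⟩ := CommGroup.exists_apply_ne_one_of_hasEnoughRootsOfUnity M ℂ h1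
    intro h0
    have h2 : kapD f ψ = 1 := by rw [h0]; rfl
    have h3 : ∀ z, ψ z ^ Fintype.card B = tauD f ψ z := by
      intro z
      have h4 := congrArg (fun ν : M →* ℂˣ => ν z) h2
      simp only [kapD_apply, MonoidHom.one_apply] at h4
      rw [tauD_apply]
      exact mul_inv_eq_one.mp h4
    have h5 := tauD_fix f ψ b m
    rw [← h3, ← h3] at h5
    have h6 : (ψ (f b m * m⁻¹)) ^ Fintype.card B = 1 := by
      rw [map_mul, map_inv, mul_pow, h5, inv_pow, mul_inv_cancel]
    have h7 : (ψ (f b m * m⁻¹)) ^ Nat.card M = 1 := by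
      rw [← map_pow, pow_card_eq_one']
      simp
    have h8 := orderOf_dvd_of_pow_eq_one h6
    have h9 := orderOf_dvd_of_pow_eq_one h7
    exact hψ (orderOf_eq_one_iff.mp (Nat.eq_one_of_dvd_coprimes hcopM h8 h9))
  -- the action of `A` on the range
  let V : Subgroup (M →* ℂˣ) := (kapD f).range
  have hVne : V ≠ ⊥ := by
    intro h
    apply hrange
    apply MonoidHom.ext
    intro ψ
    have h1 : kapD f ψ ∈ V := ⟨ψ, rfl⟩
    rw [h, Subgroup.mem_bot] at h1
    rw [h1]
    rfl
  have hVp : IsPGroup p V := by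
    rw [IsPGroup.iff_card]
    have h1 : IsPGroup p (M →* ℂˣ) := by
      intro ν
      refine ⟨k, ?_⟩
      rw [← hk]
      exact hpow ν
    exact IsPGroup.iff_card.mp (h1.to_subgroup V)
  have hVcard : p ∣ Nat.card V := by
    obtain ⟨n, hn⟩ := IsPGroup.iff_card.mp hVp
    rw [hn]
    cases n with
    | zero =>
      exfalso
      apply hVne
      exact Subgroup.eq_bot_of_card_eq _ (by simpa using hn)
    | succ n => exact dvd_pow_self _ (Nat.succ_ne_zero _)
  have hstab : ∀ (a : A) (ν : M →* ℂˣ), ν ∈ V → ν.comp (g a : M ≃* M).toMonoidHom ∈ V := by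
    rintro a _ ⟨ψ, rfl⟩
    refine ⟨ψ.comp (g a : M ≃* M).toMonoidHom, ?_⟩
    exact (kapD_comp f (g a) (σ a) (hσ a) ψ).symm
  letI act : MulAction A V :=
    { smul := fun a ν => ⟨ν.1.comp (g a⁻¹ : M ≃* M).toMonoidHom, hstab _ _ ν.2⟩
      one_smul := fun ν => by
        apply Subtype.ext
        apply MonoidHom.ext
        intro m
        show ν.1 (g 1⁻¹ m) = ν.1 m
        simp
      mul_smul := fun a b ν => by
        apply Subtype.ext
        apply MonoidHom.ext
        intro m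
        show ν.1 (g (a * b)⁻¹ m) = ν.1 (g b⁻¹ (g a⁻¹ m))
        rw [mul_inv_rev, map_mul]
        rfl }
  have hsm : ∀ (a : A) (ν : V) (m : M), (a • ν).1 m = ν.1 (g a⁻¹ m) := fun _ _ _ => rfl
  have hone : (1 : V) ∈ MulAction.fixedPoints A V := by
    intro a
    apply Subtype.ext
    apply MonoidHom.ext
    intro m
    rw [hsm]
    rfl
  obtain ⟨lam, hlam, hlam1⟩ := hA.exists_fixed_point_of_prime_dvd_card_of_fixed_point (α := V) hVcard hone
  have hlam1' : lam.1 ≠ 1 := fun h => hlam1 (Subtype.ext h.symm)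
  obtain ⟨ψ₀, hψ₀⟩ := lam.2
  refine ⟨lam.1, ?_, ?_, ?_⟩
  · intro a m
    have h1 := congrArg (fun ν : V => ν.1 (g a m)) (hlam a⁻¹)
    simp only [hsm, inv_inv] at h1
    have h2 : g a (g a m) = g a (g a m) := rfl
    have h3 := congrArg (fun ν : V => ν.1 (g a m)) (hlam a)
    simp only [hsm] at h3
    have h4 : g a⁻¹ (g a m) = m := by
      rw [← MulAut.mul_apply, ← map_mul, inv_mul_cancel, map_one, MulAut.one_apply]
    rw [h4] at h3
    exact h3.symm
  · intro c hc
    rw [← hψ₀]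
    exact kapD_of_fixed f ψ₀ hc
  · by_contra hcon
    push Not at hcon
    have h1 : kapD f lam.1 = 1 := kapD_eq_one_of_fix f hcon
    apply hlam1'
    apply MonoidHom.ext
    intro m
    apply hdualp
    have h2 := kapD_kapD f ψ₀ m
    rw [hψ₀, h1] at h2
    exact h2.symm

end Dual

end Cfsg.Agent.Lib.TwoPrimes
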