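import Cfsg.Agent.Lib.TwoPrimes.Induct
import Cfsg.Agent.Lib.Degree.ExtendLinear
import Cfsg.Agent.Lib.Degree.Inflate
import Mathlib

/-!
# Degrees in the principal blocks for two primes: the conclusions, stated via kernels.
-/

set_option autoImplicit false
set_option linter.unusedSectionVars false

namespace Cfsg.Agent.Lib.TwoPrimes

universe u

open Cfsg Cfsg.Agent.Lib.Char Cfsg.Agent.Lib.PSolv Cfsg.Agent.Lib.Degree

variable {G : Type u} [Group G] [Finite G] {p q : ℕ} [hp : Fact p.Prime] [hq : Fact q.Prime]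

/-- The hypothesis on `Irr(G / O_{p'}(G))`. -/
def KerHyp (p q : ℕ) (G : Type u) [Group G] : Prop :=
  ∀ χ : IrrCharacter G, (∀ n ∈ pPrimeCore p G, (χ : G → ℂ) n = (χ : G → ℂ) 1) →
    ¬ p ∣ charDegree (χ : G → ℂ) → ¬ q ∣ charDegree (χ : G → ℂ)

theorem charDegree_inflate (N : Subgroup G) [hN : N.Normal] (ψ : IrrCharacter (G ⧸ N)) :
    charDegree ((inflate N ψ : IrrCharacter G) : G → ℂ) = charDegree (ψ : G ⧸ N → ℂ) :=
  charDegree_comp_monoidHom (QuotientGroup.mk' N) _

theorem not_dvd_quot (hpq : p ≠ q) (hps : PStep p G) (hqs : PStep q G) (hA : KerHyp p q G) :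
    ¬ q ∣ (pPrimeCore p G).index := by
  refine not_dvd_card_of_degHyp hpq _ (G ⧸ pPrimeCore p G) rfl (hps.quotient _) (hqs.quotient _)
    Cfsg.Agent.Lib.Core.pPrimeCore_quotient_eq_bot ?_
  intro ψ h1 h2
  have h3 := hA (inflate _ ψ) (inflate_kerContains _ ψ)
  rw [charDegree_inflate] at h3
  exact h3 h1 h2

theorem sylow_le_of_not_dvd_index (K : Subgroup G) [hK : K.Normal] (h : ¬ q ∣ K.index) (Q : Sylow q G) :
    (Q : Subgroup G) ≤ K := by
  intro y hy
  obtain ⟨i, hi⟩ := (IsPGroup.iff_orderOf.mp Q.isPGroup') ⟨y, hy⟩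
  rw [Subgroup.orderOf_mk] at hi
  have h1 : orderOf (QuotientGroup.mk y : G ⧸ K) ∣ K.index := orderOf_dvd_natCard _
  have h2 : orderOf (QuotientGroup.mk y : G ⧸ K) ∣ q ^ i := by
    rw [← hi, ← QuotientGroup.mk'_apply]
    exact orderOf_map_dvd _ _
  obtain ⟨j, -, hj⟩ := (Nat.dvd_prime_pow hq.out).1 h2
  rcases j with _ | j
  · rw [pow_zero, orderOf_eq_one_iff] at hj
    exact (QuotientGroup.eq_one_iff y).mp hj
  · exfalso
    apply h
    rw [hj] at h1
    exact (dvd_pow_self q (Nat.succ_ne_zero j)).trans h1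

theorem eq_one_of_pgroup_of_coprime {Q L : Subgroup G} (hQ : IsPGroup q Q) (hL : ¬ q ∣ Nat.card L) {x : G}
    (hxQ : x ∈ Q) (hxL : x ∈ L) : x = 1 := by
  obtain ⟨i, hi⟩ := (IsPGroup.iff_orderOf.mp hQ) ⟨x, hxQ⟩
  rw [Subgroup.orderOf_mk] at hi
  have h1 : orderOf (⟨x, hxL⟩ : L) ∣ Nat.card L := orderOf_dvd_natCard _
  rw [Subgroup.orderOf_mk, hi] at h1
  rcases i with _ | i
  · rw [pow_zero, orderOf_eq_one_iff] at hi
    exact hi
  · exact absurd ((dvd_pow_self q (Nat.succ_ne_zero i)).trans h1) hL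

/-- From the two conditions on indices, commuting Sylow subgroups. -/
theorem commuting_of_not_dvd (hA : ¬ q ∣ (pPrimeCore p G).index) (hB : ¬ p ∣ (pPrimeCore q G).index) :
    ∃ (P : Sylow p G) (Q : Sylow q G), ∀ x ∈ (P : Subgroup G), ∀ y ∈ (Q : Subgroup G), x * y = y * x := by
  classical
  obtain ⟨P⟩ : Nonempty (Sylow p G) := inferInstance
  have hPL := sylow_le_of_not_dvd_index _ hB P
  obtain ⟨R, hR⟩ := exists_invariant_sylow (p := q) (q := p) (P : Subgroup G) (pPrimeCore p G) P.isPGroup'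
    Cfsg.Agent.Lib.Core.not_dvd_card_pPrimeCore
  let Q0 : Subgroup G := (R : Subgroup (pPrimeCore p G)).map (pPrimeCore p G).subtype
  have hQ0p : IsPGroup q Q0 := R.isPGroup'.map _
  have hQ0i : ¬ q ∣ Q0.index := by
    show ¬ q ∣ ((R : Subgroup (pPrimeCore p G)).map (pPrimeCore p G).subtype).index
    rw [Subgroup.index_map_subtype]
    exact hq.out.not_dvd_mul R.not_dvd_index hA
  refine ⟨P, hQ0p.toSylow hQ0i, fun x hx y hy => ?_⟩
  have hy' : y ∈ Q0 := hy
  obtain ⟨r, hr, rfl⟩ := hy'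
  have h1 : x * (pPrimeCore p G).subtype r * x⁻¹ ∈ Q0 :=
    ⟨_, hR x hx r hr, rfl⟩
  have h2 : ((pPrimeCore p G).subtype r)⁻¹ ∈ Q0 := Q0.inv_mem ⟨r, hr, rfl⟩
  have hc1 : x * (pPrimeCore p G).subtype r * x⁻¹ * ((pPrimeCore p G).subtype r)⁻¹ ∈ Q0 := Q0.mul_mem h1 h2
  have hc2 : x * (pPrimeCore p G).subtype r * x⁻¹ * ((pPrimeCore p G).subtype r)⁻¹ ∈ pPrimeCore q G := by
    have h3 : (pPrimeCore p G).subtype r * x⁻¹ * ((pPrimeCore p G).subtype r)⁻¹ ∈ pPrimeCore q G :=
      (inferInstance : (pPrimeCore q G).Normal).conj_mem _ ((pPrimeCore q G).inv_mem (hPL hx)) _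
    have h4 := (pPrimeCore q G).mul_mem (hPL hx) h3
    simpa [mul_assoc] using h4
  have h5 := eq_one_of_pgroup_of_coprime hQ0p Cfsg.Agent.Lib.Core.not_dvd_card_pPrimeCore hc1 hc2
  have h6 : x * (pPrimeCore p G).subtype r * x⁻¹ = (pPrimeCore p G).subtype r := by
    rw [mul_inv_eq_one] at h5
    exact h5
  rw [mul_inv_eq_iff_eq_mul] at h6
  exact h6

/-- From commuting Sylow subgroups, the condition on indices. -/
theorem not_dvd_of_commuting (hpq : p ≠ q) (hs : PStep p G) (P : Sylow p G) (Q : Sylow q G)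
    (hcomm : ∀ x ∈ (P : Subgroup G), ∀ y ∈ (Q : Subgroup G), x * y = y * x) :
    ¬ q ∣ (pPrimeCore p G).index := by
  classical
  let π : G →* G ⧸ pPrimeCore p G := QuotientGroup.mk' _
  have hπ : Function.Surjective π := QuotientGroup.mk'_surjective _
  have hc := centralizer_pCore_le (hs.quotient (pPrimeCore p G))
    (Cfsg.Agent.Lib.Core.pPrimeCore_quotient_eq_bot (p := p) (G := G))
  have hQK : (Q : Subgroup G) ≤ pPrimeCore p G := by
    intro y hy
    have h1 : π y ∈ Subgroup.centralizer (pCore p (G ⧸ pPrimeCore p G) : Set (G ⧸ pPrimeCore p G)) := by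
      rw [Subgroup.mem_centralizer_iff]
      intro u hu
      have h2 : u ∈ ((P.mapSurjective hπ : Sylow p (G ⧸ pPrimeCore p G)) : Subgroup (G ⧸ pPrimeCore p G)) :=
        Cfsg.Agent.Lib.Core.pCore_le_sylow _ hu
      rw [Sylow.coe_mapSurjective] at h2
      obtain ⟨x, hx, rfl⟩ := h2
      rw [← map_mul, ← map_mul, hcomm x hx y hy]
    have h3 := hc h1
    have h4 : π y = 1 := eq_one_of_two_pgroups hpq (Cfsg.Agent.Lib.Core.pCore_isPGroup p _)
      (Q.isPGroup'.map π) h3 ⟨y, hy, rfl⟩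
    exact (QuotientGroup.eq_one_iff y).mp h4
  have h5 : (pPrimeCore p G).index ∣ (Q : Subgroup G).index := Subgroup.index_dvd_of_le hQK
  exact fun hd => Q.not_dvd_index (hd.trans h5)

theorem kerHyp_of_not_dvd (h : ¬ q ∣ (pPrimeCore p G).index) : KerHyp p q G := by
  classical
  intro χ h1 _ h3
  obtain ⟨ψ, rfl⟩ := exists_inflate (pPrimeCore p G) h1
  rw [charDegree_inflate] at h3
  letI : Fintype (G ⧸ pPrimeCore p G) := Fintype.ofFinite _
  exact h (h3.trans (charDegree_dvd_card ψ.2))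

/-- A nontrivial `p`-group has a nontrivial linear character. -/
theorem exists_hom_ne_one {X : Type*} [Group X] [Finite X] (hX : IsPGroup p X) (hnt : Nontrivial X) :
    ∃ μ : X →* ℂˣ, μ ≠ 1 := by
  by_contra hall
  push Not at hall
  have h1 : commutator X = ⊤ := by
    rw [eq_top_iff]
    intro u _
    apply Cfsg.Agent.Lib.Degree.mem_commutator_of_forall_hom
    intro f
    rw [hall f]
    rfl
  haveI : Group.IsNilpotent X := hX.isNilpotent
  obtain ⟨n, hn⟩ := (nilpotent_iff_lowerCentralSeries (G := X)).1 inferInstance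
  have h2 : ∀ m, (⊤ : Subgroup X).lowerCentralSeries m = ⊤ := by
    intro m
    induction m with
    | zero => rfl
    | succ m ih =>
      rw [Subgroup.lowerCentralSeries_succ, ih]
      exact h1
  rw [h2 n] at hn
  exact top_ne_bot hn

/-- There is a `p'`-degree character of `G / O_{p'}(G)` not killing a Sylow `p`-subgroup. -/
theorem exists_irr_not_ker (hdvd : p ∣ Nat.card G) (P : Sylow p G) :
    ∃ χ : IrrCharacter G, (∀ n ∈ pPrimeCore p G, (χ : G → ℂ) n = (χ : G → ℂ) 1) ∧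
      ¬ p ∣ charDegree (χ : G → ℂ) ∧ ¬ ∀ x ∈ (P : Subgroup G), (χ : G → ℂ) x = (χ : G → ℂ) 1 := by
  classical
  let K := pPrimeCore p G
  let X := G ⧸ K
  let π : G →* X := QuotientGroup.mk' K
  have hπ : Function.Surjective π := QuotientGroup.mk'_surjective K
  letI : Fintype X := Fintype.ofFinite _
  let Pb : Sylow p X := P.mapSurjective hπ
  have hPb : (Pb : Subgroup X) = (P : Subgroup G).map π := Sylow.coe_mapSurjective _ _
  letI : Fintype (Pb : Subgroup X) := Fintype.ofFinite _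
  have hdX : p ∣ Nat.card X := by
    have h1 : Nat.card K * K.index = Nat.card G := K.card_mul_index
    rw [← h1] at hdvd
    exact (hp.out.dvd_mul.1 hdvd).resolve_left Cfsg.Agent.Lib.Core.not_dvd_card_pPrimeCore
  have hne : (Pb : Subgroup X) ≠ ⊥ := Pb.ne_bot_of_dvd_card hdX
  have hnt : Nontrivial (Pb : Subgroup X) := (Subgroup.nontrivial_iff_ne_bot _).2 hne
  obtain ⟨μ, hμ⟩ := exists_hom_ne_one (p := p) Pb.isPGroup' hnt
  have hτ := isIrrCharacter_of_hom μ
  have hτd : charDegree (fun g : (Pb : Subgroup X) => ((μ g : ℂˣ) : ℂ)) = 1 := by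
    apply charDegree_natCast
    simp
  obtain ⟨χb, h1, h2⟩ := exists_over_of_ind (p := p) (L := (Pb : Subgroup X)) (M := (Pb : Subgroup X)) le_rfl hτ hτ
    (fun _ => rfl) Pb.not_dvd_index (by rw [hτd]; exact hp.out.one_lt.ne' ∘ Nat.dvd_one.mp)
  refine ⟨inflate K χb, inflate_kerContains K χb, ?_, ?_⟩
  · rw [charDegree_inflate]
    exact h1
  · intro hall
    apply h2
    have h3 : (fun l : (Pb : Subgroup X) => (χb : X → ℂ) l) = ((χb : X → ℂ) 1) • (fun _ => (1 : ℂ)) := by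
      funext l
      have hl : (l : X) ∈ (P : Subgroup G).map π := hPb ▸ l.2
      obtain ⟨x, hx, hxl⟩ := hl
      have h4 := hall x hx
      rw [inflate_apply, inflate_apply] at h4
      simp only [Pi.smul_apply, smul_eq_mul, mul_one]
      rw [← hxl]
      exact h4
    rw [h3, classInner_smul_left, classInner_irr_of_ne isIrrCharacter_one hτ, mul_zero]
    intro h4
    apply hμ
    apply MonoidHom.ext
    intro g
    apply Units.ext
    have h5 := congrFun h4 g
    simpa using h5.symm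

end Cfsg.Agent.Lib.TwoPrimes
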