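import Cfsg.Agent.Lib.TwoPrimes.Main
import Mathlib

/-!
# A group with `O_{p'}(G) = 1` whose `p'`-degree characters have `q'`-degree has order prime to `q`: the induction.
-/

set_option autoImplicit false
set_option linter.unusedSectionVars false

namespace Cfsg.Agent.Lib.TwoPrimes

universe u

open Cfsg Cfsg.Agent.Lib.PSolv

variable {p q : ℕ} [hp : Fact p.Prime] [hq : Fact q.Prime]

/-- The main theorem on the order of the group. -/
theorem not_dvd_card_of_degHyp (hpq : p ≠ q) : ∀ (n : ℕ) (G : Type u) [Group G] [Finite G], Nat.card G = n →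
    PStep p G → PStep q G → pPrimeCore p G = ⊥ → DegHyp p q G → ¬ q ∣ Nat.card G := by
  intro n
  induction n using Nat.strong_induction_on with
  | _ n ih =>
    intro G _ _ hn hPp hPq hcore hH hdvd
    classical
    have hnt : Nontrivial G := by
      rw [← Finite.one_lt_card_iff_nontrivial]
      have h1 : q ≤ Nat.card G := Nat.le_of_dvd Nat.card_pos hdvd
      have h2 := hq.out.two_le
      omega
    -- the `p`-core is nontrivial
    have hU : pCore p G ≠ ⊥ := by
      intro hU0
      obtain ⟨D, hDn, hD1, -, hD⟩ := hPp ⊥ ⊤ Subgroup.normal_bot inferInstance bot_lt_top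
      have hcard : (⊥ : Subgroup G).relIndex D = Nat.card D := by
        rw [Subgroup.relIndex_bot_left]
      rw [hcard] at hD
      rcases hD with ⟨m, hm⟩ | hcop
      · have h1 : D ≤ pCore p G := Cfsg.Agent.Lib.Core.le_pCore hDn (IsPGroup.of_card hm)
        rw [hU0] at h1
        exact hD1.ne (le_bot_iff.mp h1).symm
      · have h1 : D ≤ pPrimeCore p G := Cfsg.Agent.Lib.Core.le_pPrimeCore hDn hcop
        rw [hcore] at h1
        exact hD1.ne (le_bot_iff.mp h1).symm
    -- its centre
    let U : Subgroup G := pCore p G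
    have hUp : IsPGroup p U := Cfsg.Agent.Lib.Core.pCore_isPGroup p G
    let N : Subgroup G := U ⊓ Subgroup.centralizer (U : Set G)
    haveI hNn : N.Normal := inferInstance
    have hNp : IsPGroup p N := hUp.to_le inf_le_left
    have hNab : ∀ a ∈ N, ∀ b ∈ N, a * b = b * a := by
      intro a ha b hb
      exact Subgroup.mem_centralizer_iff.mp hb.2 a ha.1
    have hN1 : N ≠ ⊥ := by
      haveI : Nontrivial U := (Subgroup.nontrivial_iff_ne_bot _).mpr hU
      have h2 : Nontrivial (Subgroup.center U) := IsPGroup.center_nontrivial hUp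
      obtain ⟨z, hz⟩ := exists_ne (1 : Subgroup.center U)
      intro h3
      apply hz
      have h4 : ((z : U) : G) ∈ N := by
        refine ⟨(z : U).2, ?_⟩
        show ((z : U) : G) ∈ Subgroup.centralizer _
        rw [Subgroup.mem_centralizer_iff]
        intro u hu
        have h5 := (Subgroup.mem_center_iff.mp z.2) ⟨u, hu⟩
        exact congrArg Subtype.val h5
      rw [h3, Subgroup.mem_bot] at h4
      apply Subtype.ext
      apply Subtype.ext
      exact h4
    -- the quotients
    let X := G ⧸ N
    let π : G →* X := QuotientGroup.mk' N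
    have hπ : Function.Surjective π := QuotientGroup.mk'_surjective N
    let K : Subgroup X := pPrimeCore p X
    let X₁ := X ⧸ K
    let π₁ : X →* X₁ := QuotientGroup.mk' K
    have hπ₁ : Function.Surjective π₁ := QuotientGroup.mk'_surjective K
    have hcardG : Nat.card G = Nat.card X * Nat.card N := Subgroup.card_eq_card_quotient_mul_card_subgroup N
    have hcardX : Nat.card X = Nat.card X₁ * Nat.card K := Subgroup.card_eq_card_quotient_mul_card_subgroup K
    have hNcard : 1 < Nat.card N := by
      haveI : Nontrivial N := (Subgroup.nontrivial_iff_ne_bot _).mpr hN1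
      exact Finite.one_lt_card
    have hXlt : Nat.card X < n := by
      rw [← hn, hcardG]
      exact lt_mul_of_one_lt_right Nat.card_pos hNcard
    have hX₁le : Nat.card X₁ ≤ Nat.card X := by
      rw [hcardX]
      exact Nat.le_mul_of_pos_right _ Nat.card_pos
    have hHX : DegHyp p q X := hH.of_surjective π hπ
    have hq1 : ¬ q ∣ Nat.card X₁ :=
      ih _ (lt_of_le_of_lt hX₁le hXlt) X₁ rfl ((hPp.quotient N).quotient K) ((hPq.quotient N).quotient K)
        Cfsg.Agent.Lib.Core.pPrimeCore_quotient_eq_bot (hHX.of_surjective π₁ hπ₁)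
    have hqN : ¬ q ∣ Nat.card N := by
      obtain ⟨j, hj⟩ := IsPGroup.iff_card.mp hNp
      rw [hj]
      intro hd
      have h1 := hq.out.dvd_of_dvd_pow hd
      exact hpq ((Nat.prime_dvd_prime_iff_eq hq.out hp.out).mp h1).symm
    have hqX : q ∣ Nat.card X := by
      rw [hcardG] at hdvd
      exact (hq.out.dvd_mul.mp hdvd).resolve_right hqN
    have hqK : q ∣ Nat.card K := by
      rw [hcardX] at hqX
      exact (hq.out.dvd_mul.mp hqX).resolve_left hq1
    have hKp : ¬ p ∣ Nat.card K := Cfsg.Agent.Lib.Core.not_dvd_card_pPrimeCore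
    -- the layer
    let Z : Subgroup X := pPrimeCore q X
    have hZq : ¬ q ∣ Nat.card Z := Cfsg.Agent.Lib.Core.not_dvd_card_pPrimeCore
    let Lb : Subgroup X := K ⊓ Z
    haveI hLbn : Lb.Normal := inferInstance
    have hLbq : ¬ q ∣ Nat.card Lb := fun hd => hZq (hd.trans (Subgroup.card_dvd_of_le inf_le_right))
    have hLbK : Lb < K := by
      refine lt_of_le_of_ne inf_le_left ?_
      intro h0
      rw [← h0] at hqK
      exact hLbq hqK
    obtain ⟨D, hDn, hD1, hD2, hD⟩ := (hPq.quotient N) Lb K hLbn inferInstance hLbK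
    haveI := hDn
    rcases hD with ⟨m, hm⟩ | hcop
    · have hm0 : m ≠ 0 := by
        rintro rfl
        rw [pow_zero, Subgroup.relIndex_eq_one] at hm
        exact hD1.ne (le_antisymm hD1.le hm)
      exact false_of_layer hpq hH hcore N hNp hNab Lb D hD1.le
        (fun hd => hKp (hd.trans (Subgroup.card_dvd_of_le hD2))) hLbq hm0 hm
    · apply hD1.ne
      apply le_antisymm hD1.le
      refine le_inf hD2 ?_
      apply Cfsg.Agent.Lib.Core.le_pPrimeCore hDn
      have h1 := card_inf_mul_relIndex Lb D
      rw [inf_eq_left.mpr hD1.le] at h1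
      rw [← h1]
      refine Nat.Coprime.mul_left ?_ hcop
      exact ((Nat.Prime.coprime_iff_not_dvd hq.out).mpr hLbq).symm

end Cfsg.Agent.Lib.TwoPrimes
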