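import Cfsg.Agent.Lib.Coprime.GlauberSol
import Cfsg.Agent.Lib.Derangement.Basic
import Cfsg.Agent.Lib.Char.Complete
import Mathlib

/-!
# A consequence of the Glauberman correspondence

If every `A`-invariant irreducible character of `Y` is `S`-invariant, where `A ≤ S` and `S` is a solvable group
acting coprimely on `Y`, then `C_Y(A) ≤ C_Y(S)`.
-/

set_option autoImplicit false
set_option linter.unusedSectionVars false

namespace Cfsg.Agent.Lib.TwoPrimes

universe u

open Cfsg Cfsg.Agent.Lib.Coprime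

theorem key_fix {Y S : Type u} [Group Y] [Group S] [Fintype Y] [Finite S] (φ : S →* MulAut Y) (A : Subgroup S)
    (hsol : Group.IsSolvable S) (hcop : (Nat.card Y).Coprime (Nat.card S))
    (hinv : ∀ χ : IrrCharacter Y, IsInv (φ.comp A.subtype) (χ : Y → ℂ) → IsInv φ (χ : Y → ℂ)) :
    ∀ y : Y, (∀ a ∈ A, φ a y = y) → ∀ s, φ s y = y := by
  classical
  let φA : A →* MulAut Y := φ.comp A.subtype
  have hφA : ∀ (a : A) (y : Y), φA a y = φ a y := fun _ _ => rfl
  let E := fixSub φA
  let F := fixSub φ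
  letI : Fintype E := Fintype.ofFinite _
  letI : Fintype F := Fintype.ofFinite _
  have hcopA : (Nat.card Y).Coprime (Nat.card A) :=
    Nat.Coprime.coprime_dvd_right (Subgroup.card_subgroup_dvd_card A) hcop
  have hsolA : Group.IsSolvable A := inferInstance
  have hrE : ∀ y, y ∈ E.subtype.range ↔ ∀ a, φA a y = y := by
    intro y
    rw [Subgroup.range_subtype]
    exact Iff.rfl
  have hrF : ∀ y, y ∈ F.subtype.range ↔ ∀ a, φ a y = y := by
    intro y
    rw [Subgroup.range_subtype]
    exact Iff.rfl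
  obtain ⟨fA, -⟩ := sol_corr_single φA E.subtype hsolA hcopA Subtype.val_injective hrE
  obtain ⟨fS, -⟩ := sol_corr_single φ F.subtype hsol hcop Subtype.val_injective hrF
  have h1 : Nat.card (IrrInv φA) = Nat.card (ConjClasses E) := by
    rw [Nat.card_congr fA, Cfsg.Agent.Lib.Char.card_irr_eq_card_conjClasses]
  have h2 : Nat.card (IrrInv φ) = Nat.card (ConjClasses F) := by
    rw [Nat.card_congr fS, Cfsg.Agent.Lib.Char.card_irr_eq_card_conjClasses]
  have h3 : Nat.card (IrrInv φA) = Nat.card (IrrInv φ) :=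
    Nat.card_congr (Equiv.subtypeEquivRight (fun χ => ⟨hinv χ, fun h a y => h a.1 y⟩))
  have hA := card_fixCl (φ := φA) (j := E.subtype) hcopA.symm (Or.inl hsolA) Subtype.val_injective hrE
  have hS := card_fixCl (φ := φ) (j := F.subtype) hcop.symm (Or.inl hsol) Subtype.val_injective hrF
  have h4 : Nat.card {K : ConjClasses Y // IsFixCl φ K} = Nat.card {K : ConjClasses Y // IsFixCl φA K} := by
    rw [hA, hS, ← h1, ← h2, h3]
  let incl : {K : ConjClasses Y // IsFixCl φ K} → {K : ConjClasses Y // IsFixCl φA K} :=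
    fun K => ⟨K.1, fun a g hg => K.2 a.1 g hg⟩
  have hincl : Function.Bijective incl := by
    rw [Nat.bijective_iff_injective_and_card]
    refine ⟨?_, h4⟩
    intro x y hxy
    exact Subtype.ext (congrArg (fun z : {K : ConjClasses Y // IsFixCl φA K} => z.1) hxy)
  have hfixcl : ∀ K : ConjClasses Y, IsFixCl φA K → IsFixCl φ K := by
    intro K hK
    obtain ⟨K', hK'⟩ := hincl.2 ⟨K, hK⟩
    have h5 : K'.1 = K := congrArg (fun z : {K : ConjClasses Y // IsFixCl φA K} => z.1) hK'
    rw [← h5]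
    exact K'.2
  -- every fixed point of `A` is conjugate to a fixed point of `S`
  have hconj : ∀ y : E, ∃ d : E, (d : Y) * y * (d : Y)⁻¹ ∈ F := by
    intro y
    have hy : ∀ a, φA a (y : Y) = y := y.2
    have hK : IsFixCl φA (ConjClasses.mk (y : Y)) := by
      intro a g hg
      have h5 : IsConj g (y : Y) := ConjClasses.mk_eq_mk_iff_isConj.mp hg
      have h6 := isConj_map_of_isConj (φ := φA) h5 a
      rw [hy a] at h6
      exact ConjClasses.mk_eq_mk_iff_isConj.mpr h6
    have hK' := hfixcl _ hK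
    have h5 : ∀ s, IsConj (y : Y) (φ s y) := by
      intro s
      have h6 := hK' s (y : Y) rfl
      exact (ConjClasses.mk_eq_mk_iff_isConj.mp h6).symm
    obtain ⟨w, hw, hw'⟩ := exists_fixed_of_conj (φ := φ) hcop.symm (Or.inl hsol) (y : Y) h5
    have hwA : ∀ a, φA a w = w := fun a => hw' a.1
    obtain ⟨d, hd, hd'⟩ := exists_fixed_conj_of_conj (φ := φA) hcopA.symm (Or.inl hsolA) hy hwA hw
    refine ⟨⟨d, hd⟩, ?_⟩
    rw [hd']
    exact hw'
  have htop : F.subgroupOf E = ⊤ := by
    by_contra hne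
    obtain ⟨x, hx⟩ := Cfsg.Agent.Lib.Derangement.exists_not_mem_conj (F.subgroupOf E) hne
    obtain ⟨d, hd⟩ := hconj x
    apply hx d⁻¹
    rw [Subgroup.mem_subgroupOf]
    simpa using hd
  intro y hy s
  have hyE : y ∈ E := fun a => hy a.1 a.2
  have h5 : (⟨y, hyE⟩ : E) ∈ F.subgroupOf E := by
    rw [htop]
    trivial
  exact (Subgroup.mem_subgroupOf.mp h5) s

end Cfsg.Agent.Lib.TwoPrimes
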