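import Cfsg.Agent.Lib.Core.Basic
import Cfsg.Agent.Lib.PSolv.Basic
import Mathlib

/-!
# Group-theoretic preliminaries for commuting Sylow subgroups.
-/

set_option autoImplicit false
set_option linter.unusedSectionVars false

namespace Cfsg.Agent.Lib.TwoPrimes

universe u

open Cfsg

section Aux

variable {G : Type u} [Group G] [Finite G] {p q : ℕ} [hp : Fact p.Prime] [hq : Fact q.Prime]

/-- A normal abelian `p`-subgroup contains its centralizer in a normal subgroup `Y` with `Y/N` a `p'`-group,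
provided `O_{p'}(G) = 1`. -/
theorem centralizer_quot_le (hcore : pPrimeCore p G = ⊥) (N Y : Subgroup G) [hN : N.Normal] [hY : Y.Normal]
    (hNp : IsPGroup p N) (hNab : ∀ a ∈ N, ∀ b ∈ N, a * b = b * a) (hNY : N ≤ Y)
    (hcop : (N.relIndex Y).Coprime p) : Y ⊓ Subgroup.centralizer (N : Set G) ≤ N := by
  classical
  set C : Subgroup G := Y ⊓ Subgroup.centralizer (N : Set G) with hC
  haveI hCn : C.Normal := inferInstance
  have hNC : N ≤ C := by
    refine le_inf hNY ?_
    intro x hx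
    rw [Subgroup.mem_centralizer_iff]
    intro y hy
    exact hNab y hy x hx
  let N' : Subgroup C := N.subgroupOf C
  haveI hN'n : N'.Normal := Subgroup.Normal.subgroupOf hN C
  have hN'card : Nat.card N' = Nat.card N := Nat.card_congr (Subgroup.subgroupOfEquivOfLe hNC).toEquiv
  have hidx : N'.index ∣ N.relIndex Y := by
    show N.relIndex C ∣ N.relIndex Y
    have h1 := Subgroup.relIndex_mul_relIndex N C Y hNC inf_le_left
    exact Dvd.intro _ h1
  have hidxcop : N'.index.Coprime p := Nat.Coprime.coprime_dvd_left hidx hcop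
  obtain ⟨k, hk⟩ := IsPGroup.iff_card.mp hNp
  have hcop2 : (Nat.card N').Coprime N'.index := by
    rw [hN'card, hk]
    exact Nat.Coprime.pow_left _ hidxcop.symm
  obtain ⟨H, hH⟩ := Subgroup.exists_right_complement'_of_coprime hcop2
  have hcen : ∀ n ∈ N', ∀ c : C, n * c = c * n := by
    intro n hn c
    apply Subtype.ext
    have h1 : (c : G) ∈ Subgroup.centralizer (N : Set G) := c.2.2
    exact Subgroup.mem_centralizer_iff.mp h1 _ (Subgroup.mem_subgroupOf.mp hn)
  have hHn : H.Normal := by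
    constructor
    intro x hx d
    obtain ⟨⟨n, h'⟩, hnh⟩ := hH.2 d
    simp only at hnh
    rw [← hnh]
    have h2 : (n : C) * h' * x * ((n : C) * h')⁻¹ = h' * x * h'⁻¹ := by
      have aux : ∀ u v y : C, v * u * y * (v * u)⁻¹ = v * (u * y * u⁻¹) * v⁻¹ := by
        intro u v y; group
      rw [aux, hcen _ n.2]
      simp
    rw [h2]
    exact H.mul_mem (H.mul_mem h'.2 hx) (H.inv_mem h'.2)
  have hHcard : Nat.card H = N'.index := by
    have h1 := hH.card_mul
    have h2 := Subgroup.card_mul_index N'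
    have h3 : 0 < Nat.card N' := Nat.card_pos
    exact Nat.eq_of_mul_eq_mul_left h3 (h1.trans h2.symm)
  have hHcop : (Nat.card H).Coprime p := by
    rw [hHcard]
    exact hidxcop
  have hH1 : H ≤ pPrimeCore p C := Cfsg.Agent.Lib.Core.le_pPrimeCore hHn hHcop
  have hbot : (pPrimeCore p C).map C.subtype = ⊥ := by
    rw [Cfsg.Agent.Lib.Core.map_pPrimeCore_of_normal, hcore, inf_bot_eq]
  have hbot2 : pPrimeCore p C = ⊥ := by
    rwa [Subgroup.map_eq_bot_iff_of_injective _ C.subtype_injective] at hbot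
  have hHbot : H = ⊥ := le_bot_iff.mp (hbot2 ▸ hH1)
  rw [hHbot] at hH
  have htop : N' = ⊤ := by
    have h1 := Subgroup.isComplement'_bot_right.mp hH
    exact h1
  intro x hx
  have h2 : (⟨x, hx⟩ : C) ∈ N' := by
    rw [htop]
    trivial
  exact Subgroup.mem_subgroupOf.mp h2

/-- A normal subgroup of `q`-power index and a Sylow `q`-subgroup generate the group. -/
theorem sup_sylow_eq_top {Γ : Type*} [Group Γ] [Finite Γ] (N' : Subgroup Γ) {k : ℕ} (hk : N'.index = q ^ k)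
    (R : Sylow q Γ) : N' ⊔ (R : Subgroup Γ) = ⊤ := by
  rw [← Subgroup.index_eq_one]
  have h1 : (N' ⊔ (R : Subgroup Γ)).index ∣ q ^ k := by
    rw [← hk]
    exact Subgroup.index_dvd_of_le le_sup_left
  have h2 : (N' ⊔ (R : Subgroup Γ)).index ∣ (R : Subgroup Γ).index := Subgroup.index_dvd_of_le le_sup_right
  obtain ⟨i, -, hi⟩ := (Nat.dvd_prime_pow hq.out).1 h1
  rw [hi] at h2 ⊢
  cases i with
  | zero => simp
  | succ i =>
    exfalso
    exact R.not_dvd_index ((dvd_pow_self q (Nat.succ_ne_zero i)).trans h2)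

/-- Extension of a linear character from `N` to `P = N A`. -/
theorem exists_ext_hom {N P A : Subgroup G} (hNP : N ≤ P) (hAP : A ≤ P)
    (hAN : A ≤ Subgroup.normalizer (N : Set G)) (hdec : ∀ x ∈ P, ∃ n ∈ N, ∃ a ∈ A, x = n * a)
    (lam : N →* ℂˣ)
    (hinv : ∀ (a : G) (ha : a ∈ A) (n : N), lam ⟨a * n * a⁻¹, (Subgroup.mem_normalizer_iff.mp (hAN ha) n).mp n.2⟩ = lam n)
    (htriv : ∀ (c : G) (hc : c ∈ N), c ∈ A → lam ⟨c, hc⟩ = 1) :
    ∃ μ : P →* ℂˣ, ∀ (n : G) (hn : n ∈ N), μ ⟨n, hNP hn⟩ = lam ⟨n, hn⟩ := by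
  classical
  choose! nn hnn aa haa hx using hdec
  have hwell : ∀ (x : P) (n : G) (hn : n ∈ N) (a : G), a ∈ A → (x : G) = n * a →
      lam ⟨nn x, hnn x x.2⟩ = lam ⟨n, hn⟩ := by
    intro x n hn a ha hxe
    have h1 : nn x * aa x = n * a := (hx x x.2).symm.trans hxe
    have h2 : n⁻¹ * nn x = a * (aa x)⁻¹ := by
      calc n⁻¹ * nn x = n⁻¹ * (nn x * aa x) * (aa x)⁻¹ := by group
        _ = n⁻¹ * (n * a) * (aa x)⁻¹ := by rw [h1]
        _ = a * (aa x)⁻¹ := by group
    have h3 : n⁻¹ * nn x ∈ N := N.mul_mem (N.inv_mem hn) (hnn x x.2)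
    have h4 : n⁻¹ * nn x ∈ A := by
      rw [h2]
      exact A.mul_mem ha (A.inv_mem (haa x x.2))
    have h5 := htriv _ h3 h4
    have h6 : (⟨nn x, hnn x x.2⟩ : N) = ⟨n, hn⟩ * ⟨n⁻¹ * nn x, h3⟩ := by
      apply Subtype.ext
      show nn x = n * (n⁻¹ * nn x)
      group
    rw [h6, map_mul, h5, mul_one]
  refine ⟨MonoidHom.mk' (fun x => lam ⟨nn x, hnn x x.2⟩) ?_, ?_⟩
  · intro x y
    have hna : nn (x : P) ∈ N := hnn x x.2
    have hc : aa (x : P) * nn (y : P) * (aa (x : P))⁻¹ ∈ N :=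
      (Subgroup.mem_normalizer_iff.mp (hAN (haa x x.2)) _).mp (hnn y y.2)
    have hdec' : ((x * y : P) : G) = (nn (x : P) * (aa (x : P) * nn (y : P) * (aa (x : P))⁻¹)) * (aa (x : P) * aa (y : P)) := by
      show (x : G) * (y : G) = _
      conv_lhs => rw [hx x x.2, hx y y.2]
      group
    have h1 := hwell (x * y) _ (N.mul_mem hna hc) _ (A.mul_mem (haa x x.2) (haa y y.2)) hdec'
    rw [h1]
    have h2 : (⟨nn (x : P) * (aa (x : P) * nn (y : P) * (aa (x : P))⁻¹), N.mul_mem hna hc⟩ : N) =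
        ⟨nn x, hna⟩ * ⟨aa (x : P) * nn (y : P) * (aa (x : P))⁻¹, hc⟩ := rfl
    rw [h2, map_mul]
    congr 1
    exact hinv _ (haa x x.2) ⟨nn y, hnn y y.2⟩
  · intro n hn
    exact hwell ⟨n, hNP hn⟩ n hn 1 A.one_mem (by simp)

end Aux

end Cfsg.Agent.Lib.TwoPrimes
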