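import Cfsg.Agent.Lib.TwoPrimes.Uniq
import Cfsg.Agent.Lib.TwoPrimes.Dual
import Cfsg.Agent.Lib.TwoPrimes.Prelim
import Cfsg.Agent.Lib.Coprime.GlauberP
import Mathlib

/-!
# The key step for commuting Sylow subgroups.
-/

set_option autoImplicit false
set_option linter.unusedSectionVars false

namespace Cfsg.Agent.Lib.TwoPrimes

universe u

open Cfsg Cfsg.Agent.Lib.Char Cfsg.Agent.Lib.Coprime

section Layer

variable {G : Type u} [Group G] [Finite G] {p q : ℕ} [hp : Fact p.Prime] [hq : Fact q.Prime]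

omit hp in
/-- The Frattini argument in `P R`. -/
theorem exists_dec_of_normalizes {N R P : Subgroup G} [hN : N.Normal] (hNR : N ≤ R) (hNP : N ≤ P)
    (hPR : P ≤ Subgroup.normalizer (R : Set G)) {k : ℕ} (hk : N.relIndex R = q ^ k) (B : Sylow q R) :
    ∀ x ∈ P, ∃ n ∈ N, ∃ a ∈ P ⊓ Subgroup.normalizer (((B : Subgroup R).map R.subtype : Subgroup G) : Set G),
      x = n * a := by
  classical
  intro x hx
  have hnorm : ∀ s ∈ P, ∀ g ∈ R, s * g * s⁻¹ ∈ R := fun s hs g hg =>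
    (Subgroup.mem_normalizer_iff.mp (hPR hs) g).mp hg
  let e : MulAut R := conjAct R P hnorm ⟨x, hx⟩
  have he : ∀ y : R, ((e y : R) : G) = x * y * x⁻¹ := fun y => conjAct_apply R P hnorm ⟨x, hx⟩ y
  obtain ⟨r, hr⟩ := MulAction.exists_smul_eq R B (e • B)
  let N' : Subgroup R := N.subgroupOf R
  haveI hN'n : N'.Normal := Subgroup.Normal.subgroupOf hN R
  have hsup : N' ⊔ (B : Subgroup R) = ⊤ := sup_sylow_eq_top N' hk B
  obtain ⟨n, hn, b, hb, hrd⟩ := Cfsg.Agent.Lib.Core.exists_mul_of_mem_sup_normal_left (N := N') (H := (B : Subgroup R))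
    (x := r) (by rw [hsup]; trivial)
  have hn' : (n : G) ∈ N := Subgroup.mem_subgroupOf.mp hn
  refine ⟨n, hn', (n : G)⁻¹ * x, ⟨P.mul_mem (P.inv_mem (hNP hn')) hx, ?_⟩, by group⟩
  have hstep : ∀ y : R, y ∈ (B : Subgroup R) → ((n : G)⁻¹ * x) * y * ((n : G)⁻¹ * x)⁻¹ ∈
      ((B : Subgroup R).map R.subtype : Subgroup G) := by
    intro y hy
    have h1 : e y ∈ (e • B : Sylow q R) := by
      change _ ∈ (e • B : Sylow q R)
      rw [Cfsg.Agent.Lib.PSolv.mem_smul']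
      have h0 : e⁻¹ • (e y) = y := inv_smul_smul e y
      rw [h0]
      exact hy
    rw [← hr, Cfsg.Agent.Lib.PSolv.mem_conj_smul, hrd] at h1
    have h2 : b * ((n * b)⁻¹ * e y * (n * b)) * b⁻¹ ∈ (B : Subgroup R) :=
      (B : Subgroup R).mul_mem ((B : Subgroup R).mul_mem hb h1) ((B : Subgroup R).inv_mem hb)
    have h3 : b * ((n * b)⁻¹ * e y * (n * b)) * b⁻¹ = n⁻¹ * e y * n := by group
    rw [h3] at h2
    refine ⟨_, h2, ?_⟩
    show (n : G)⁻¹ * ((e y : R) : G) * n = _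
    rw [he]
    group
  -- conjugation maps `B₀` into itself; use finiteness
  let B₀ : Subgroup G := (B : Subgroup R).map R.subtype
  have hle : ∀ g ∈ B₀, ((n : G)⁻¹ * x) * g * ((n : G)⁻¹ * x)⁻¹ ∈ B₀ := by
    rintro _ ⟨y, hy, rfl⟩
    exact hstep y hy
  set c : G := (n : G)⁻¹ * x with hc
  have hinj : Function.Injective (fun g : B₀ => (⟨c * g * c⁻¹, hle g g.2⟩ : B₀)) := by
    intro g g' hgg
    have h1 : c * (g : G) * c⁻¹ = c * g' * c⁻¹ := congrArg Subtype.val hgg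
    exact Subtype.ext (by simpa using h1)
  have hbij := Finite.injective_iff_surjective.mp hinj
  show c ∈ Subgroup.normalizer ((B₀ : Subgroup G) : Set G)
  rw [Subgroup.mem_normalizer_iff]
  intro g
  constructor
  · exact hle g
  · intro hg
    obtain ⟨g', hg'⟩ := hbij ⟨c * g * c⁻¹, hg⟩
    have h1 : c * (g' : G) * c⁻¹ = c * g * c⁻¹ := congrArg Subtype.val hg'
    have h2 : (g' : G) = g := by simpa using h1
    rw [← h2]
    exact g'.2

/-- An element which is both a `p`-element and a `q`-element is trivial. -/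
theorem eq_one_of_two_pgroups {x : G} (hpq : p ≠ q) {A B : Subgroup G} (hA : IsPGroup p A) (hB : IsPGroup q B)
    (hxA : x ∈ A) (hxB : x ∈ B) : x = 1 := by
  obtain ⟨i, hi⟩ := (IsPGroup.iff_orderOf.mp hA) ⟨x, hxA⟩
  obtain ⟨j, hj⟩ := (IsPGroup.iff_orderOf.mp hB) ⟨x, hxB⟩
  rw [Subgroup.orderOf_mk] at hi hj
  have h1 : Nat.Coprime (p ^ i) (q ^ j) :=
    Nat.Coprime.pow _ _ ((Nat.coprime_primes hp.out hq.out).mpr hpq)
  have h2 : orderOf x = 1 := Nat.eq_one_of_dvd_coprimes h1 (hi ▸ dvd_rfl) (hj ▸ dvd_rfl)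
  exact orderOf_eq_one_iff.mp h2

/-- The inertia group of a suitable linear character of `N`. -/
theorem exists_inertia_of_layer [Fintype G] (hH : DegHyp p q G) (N P B₀ : Subgroup G) [hN : N.Normal]
    (hNp : IsPGroup p N) (hNab : ∀ a ∈ N, ∀ b ∈ N, a * b = b * a) (hNP : N ≤ P) (hPp : IsPGroup p P)
    (hPi : ¬ p ∣ P.index) (hB₀ : IsPGroup q B₀) (hpq : p ≠ q)
    (hdec : ∀ x ∈ P, ∃ n ∈ N, ∃ a ∈ P ⊓ Subgroup.normalizer (B₀ : Set G), x = n * a)
    (hne : ∃ b ∈ B₀, ∃ n ∈ N, b * n * b⁻¹ ≠ n) :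
    ∃ I : Subgroup G, P ≤ I ∧ ¬ q ∣ I.index ∧ ¬ B₀ ≤ I := by
  classical
  letI cN : CommGroup N :=
    { (inferInstance : Group N) with mul_comm := fun a b => Subtype.ext (hNab a a.2 b b.2) }
  letI : Fintype B₀ := Fintype.ofFinite _
  letI : Fintype N := Fintype.ofFinite _
  letI : Fintype P := Fintype.ofFinite _
  let A₀ : Subgroup G := P ⊓ Subgroup.normalizer (B₀ : Set G)
  let f : B₀ →* MulAut N := (MulAut.conjNormal (H := N)).comp B₀.subtype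
  let g : A₀ →* MulAut N := (MulAut.conjNormal (H := N)).comp A₀.subtype
  have hf : ∀ (b : B₀) (m : N), f b m = ⟨b * m * (b : G)⁻¹, hN.conj_mem m m.2 b⟩ := fun b m =>
    Subtype.ext (MulAut.conjNormal_apply (b : G) m)
  have hg : ∀ (a : A₀) (m : N), g a m = ⟨a * m * (a : G)⁻¹, hN.conj_mem m m.2 a⟩ := fun a m =>
    Subtype.ext (MulAut.conjNormal_apply (a : G) m)
  let σ : A₀ → B₀ ≃ B₀ := fun a =>
    { toFun := fun b => ⟨a * b * (a : G)⁻¹, (Subgroup.mem_normalizer_iff.mp a.2.2 b).mp b.2⟩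
      invFun := fun b => ⟨(a : G)⁻¹ * b * (a : G)⁻¹⁻¹,
        (Subgroup.mem_normalizer_iff.mp ((Subgroup.normalizer (B₀ : Set G)).inv_mem a.2.2) b).mp b.2⟩
      left_inv := fun b => Subtype.ext (by
        show (a : G)⁻¹ * (a * b * (a : G)⁻¹) * (a : G)⁻¹⁻¹ = b
        group)
      right_inv := fun b => Subtype.ext (by
        show (a : G) * ((a : G)⁻¹ * b * (a : G)⁻¹⁻¹) * (a : G)⁻¹ = b
        group) }
  have hσ : ∀ a b m, g a (f b m) = f (σ a b) (g a m) := by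
    intro a b m
    rw [hf, hg, hf, hg]
    apply Subtype.ext
    show (a : G) * ((b : G) * m * (b : G)⁻¹) * (a : G)⁻¹ =
      ((a : G) * b * (a : G)⁻¹) * ((a : G) * m * (a : G)⁻¹) * ((a : G) * b * (a : G)⁻¹)⁻¹
    group
  have hne' : ∃ b m, f b m ≠ m := by
    obtain ⟨b, hb, n, hn, h⟩ := hne
    refine ⟨⟨b, hb⟩, ⟨n, hn⟩, ?_⟩
    rw [hf]
    intro h0
    exact h (congrArg Subtype.val h0)
  have hcop : (Nat.card B₀).Coprime p := by
    obtain ⟨k, hk⟩ := IsPGroup.iff_card.mp hB₀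
    rw [hk]
    exact Nat.Coprime.pow_left _ ((Nat.coprime_primes hq.out hp.out).mpr hpq.symm)
  have hA₀p : IsPGroup p A₀ := hPp.to_le inf_le_left
  obtain ⟨lam, h1, h2, b, m, h3⟩ := exists_dual_char hNp hcop hA₀p f g σ hσ hne'
  have hAN : A₀ ≤ Subgroup.normalizer (N : Set G) := by
    intro a _
    rw [Subgroup.mem_normalizer_iff]
    intro n
    constructor
    · intro hn
      exact hN.conj_mem n hn a
    · intro hn
      have h5 := hN.conj_mem _ hn a⁻¹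
      have h6 : a⁻¹ * (a * n * a⁻¹) * a⁻¹⁻¹ = n := by group
      rwa [h6] at h5
  have hinv : ∀ (a : G) (ha : a ∈ A₀) (n : N),
      lam ⟨a * n * a⁻¹, (Subgroup.mem_normalizer_iff.mp (hAN ha) n).mp n.2⟩ = lam n := by
    intro a ha n
    have h4 := h1 ⟨a, ha⟩ n
    rw [hg] at h4
    exact h4
  have htriv : ∀ (c : G) (hc : c ∈ N), c ∈ A₀ → lam ⟨c, hc⟩ = 1 := by
    intro c hc hcA
    apply h2
    intro b'
    rw [hf]
    apply Subtype.ext
    show (b' : G) * c * (b' : G)⁻¹ = c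
    have h5 : (b' : G) * c * (b' : G)⁻¹ * c⁻¹ ∈ N :=
      N.mul_mem (hN.conj_mem c hc _) (N.inv_mem hc)
    have h6 : (b' : G) * c * (b' : G)⁻¹ * c⁻¹ ∈ B₀ := by
      have h7 : c * (b' : G)⁻¹ * c⁻¹ ∈ B₀ :=
        (Subgroup.mem_normalizer_iff.mp hcA.2 _).mp (B₀.inv_mem b'.2)
      have h8 : (b' : G) * c * (b' : G)⁻¹ * c⁻¹ = (b' : G) * (c * (b' : G)⁻¹ * c⁻¹) := by group
      rw [h8]
      exact B₀.mul_mem b'.2 h7
    have h9 := eq_one_of_two_pgroups hpq hNp hB₀ h5 h6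
    exact mul_inv_eq_one.mp h9
  obtain ⟨μ, hμ⟩ := exists_ext_hom hNP inf_le_left hAN hdec lam hinv htriv
  have hτ := isIrrCharacter_of_hom μ
  have hθ := isIrrCharacter_of_hom lam
  have hres : ∀ l : N, (fun x : P => ((μ x : ℂˣ) : ℂ)) ⟨l, hNP l.2⟩ = (fun n : N => ((lam n : ℂˣ) : ℂ)) l := by
    intro l
    show ((μ ⟨l, hNP l.2⟩ : ℂˣ) : ℂ) = (lam l : ℂˣ)
    rw [hμ l l.2]
  have hτd : ¬ p ∣ charDegree (fun x : P => ((μ x : ℂˣ) : ℂ)) := by
    have h4 : charDegree (fun x : P => ((μ x : ℂˣ) : ℂ)) = 1 := by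
      apply Cfsg.Agent.Lib.Coprime.charDegree_of_eq
      simp
    rw [h4]
    exact hp.out.one_lt.ne' ∘ Nat.dvd_one.mp
  obtain ⟨χ, hχ1, hχ2⟩ := exists_over_of_ind hNP hτ hθ hres hPi hτd
  have hχ3 := hH χ hχ1
  have h4 := Cfsg.Agent.Lib.CharExtra.inertia_index_mul_degree_dvd N hN χ.2 hθ hχ2
  refine ⟨inertia hN (fun n : N => ((lam n : ℂˣ) : ℂ)), ?_, ?_, ?_⟩
  · intro x hx
    rw [mem_inertia_iff]
    intro n
    have h5 := hμ (x * n * x⁻¹) (hN.conj_mem n n.2 x)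
    have h6 := hμ n n.2
    show ((lam ⟨x * n * x⁻¹, _⟩ : ℂˣ) : ℂ) = (lam n : ℂˣ)
    rw [← h5]
    have h7 : (⟨x * n * x⁻¹, hNP (hN.conj_mem n n.2 x)⟩ : P) = ⟨x, hx⟩ * ⟨n, hNP n.2⟩ * (⟨x, hx⟩ : P)⁻¹ := rfl
    rw [h7, map_mul, map_mul, map_inv, h6, mul_comm (μ ⟨x, hx⟩), mul_assoc, mul_inv_cancel, mul_one]
  · intro hd
    exact hχ3 (hd.trans ((Dvd.intro _ rfl).trans h4))
  · intro hle
    apply h3
    have h5 := (mem_inertia_iff hN _ (b : G)).mp (hle b.2) m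
    rw [hf]
    exact Units.ext h5

end Layer

end Cfsg.Agent.Lib.TwoPrimes
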