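import Cfsg.Agent.Lib.TwoPrimes.Layer
import Mathlib

/-!
# A group with `O_{p'}(G) = 1` whose `p'`-degree characters have `q'`-degree has order prime to `q`.
-/

set_option autoImplicit false
set_option linter.unusedSectionVars false

namespace Cfsg.Agent.Lib.TwoPrimes

universe u

open Cfsg Cfsg.Agent.Lib.Char Cfsg.Agent.Lib.Coprime

section Main

variable {G : Type u} [Group G] [Finite G] {p q : ℕ} [hp : Fact p.Prime] [hq : Fact q.Prime]

/-- The hypothesis passes to quotients. -/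
theorem DegHyp.of_surjective {X : Type u} [Group X] (hH : DegHyp p q G) (f : G →* X) (hf : Function.Surjective f) :
    DegHyp p q X := by
  intro χ h1 h2
  have h3 := hH ⟨(χ : X → ℂ) ∘ f, isIrr_comp_surjective f hf χ.2⟩
  simp only [charDegree_comp_monoidHom] at h3
  exact h3 h1 h2

/-- The central step. -/
theorem false_of_layer (hpq : p ≠ q) (hH : DegHyp p q G) (hcore : pPrimeCore p G = ⊥) (N : Subgroup G) [hN : N.Normal]
    (hNp : IsPGroup p N) (hNab : ∀ a ∈ N, ∀ b ∈ N, a * b = b * a)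
    (L T : Subgroup (G ⧸ N)) [hL : L.Normal] [hT : T.Normal] (hLT : L ≤ T) (hTp : ¬ p ∣ Nat.card T)
    (hLq : ¬ q ∣ Nat.card L) {k : ℕ} (hk0 : k ≠ 0) (hk : L.relIndex T = q ^ k) : False := by
  classical
  letI : Fintype G := Fintype.ofFinite G
  letI : Fintype (G ⧸ N) := Fintype.ofFinite _
  letI : Fintype L := Fintype.ofFinite _
  let π : G →* G ⧸ N := QuotientGroup.mk' N
  have hπ : Function.Surjective π := QuotientGroup.mk'_surjective N
  have hker : π.ker = N := QuotientGroup.ker_mk' N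
  have hHX : DegHyp p q (G ⧸ N) := hH.of_surjective π hπ
  obtain ⟨R₁⟩ : Nonempty (Sylow q T) := inferInstance
  let Bb : Subgroup (G ⧸ N) := (R₁ : Subgroup T).map T.subtype
  have hBbp : IsPGroup q Bb := R₁.isPGroup'.map _
  have hBbT : Bb ≤ T := Subgroup.map_subtype_le _
  have hsup : Subgroup.normalizer (Bb : Set (G ⧸ N)) ⊔ T = ⊤ := Sylow.normalizer_sup_eq_top R₁
  have hind : ¬ p ∣ (Subgroup.normalizer (Bb : Set (G ⧸ N))).index := fun hd =>
    hTp (hd.trans (Cfsg.Agent.Lib.PSolv.index_dvd_card_of_sup_eq_top _ _ hsup))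
  obtain ⟨A, hA⟩ := Cfsg.Agent.Lib.PSolv.exists_sylow_le_of_not_dvd_index hind
  let P : Subgroup G := (A : Subgroup (G ⧸ N)).comap π
  let R : Subgroup G := Bb.comap π
  let Y : Subgroup G := T.comap π
  haveI hYn : Y.Normal := hT.comap π
  have hNle : ∀ S : Subgroup (G ⧸ N), N ≤ S.comap π := by
    intro S x hx
    show π x ∈ S
    have h1 : π x = 1 := by
      rw [← MonoidHom.mem_ker, hker]
      exact hx
    rw [h1]
    exact S.one_mem
  have hNP : N ≤ P := hNle _
  have hNR : N ≤ R := hNle _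
  have hNY : N ≤ Y := hNle _
  have hPp : IsPGroup p P := A.isPGroup'.comap_of_ker_isPGroup π (by rw [hker]; exact hNp)
  have hPi : ¬ p ∣ P.index := by
    have h1 : P.index = (A : Subgroup (G ⧸ N)).index := Subgroup.index_comap_of_surjective _ hπ
    rw [h1]
    exact A.not_dvd_index
  have hPR : P ≤ Subgroup.normalizer (R : Set G) := by
    intro x hx
    have hxn : π x ∈ Subgroup.normalizer (Bb : Set (G ⧸ N)) := hA hx
    rw [Subgroup.mem_normalizer_iff]
    intro y
    show π y ∈ Bb ↔ π (x * y * x⁻¹) ∈ Bb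
    rw [map_mul, map_mul, map_inv]
    exact Subgroup.mem_normalizer_iff.mp hxn (π y)
  have hrel : ∀ S : Subgroup (G ⧸ N), N.relIndex (S.comap π) = Nat.card S := by
    intro S
    have h1 := Subgroup.relIndex_ker (K := S.comap π) π
    rw [hker, Subgroup.map_comap_eq_self_of_surjective hπ] at h1
    exact h1
  obtain ⟨j, hj⟩ := IsPGroup.iff_card.mp hBbp
  have hrelR : N.relIndex R = q ^ j := by
    rw [hrel, hj]
  obtain ⟨B₁⟩ : Nonempty (Sylow q R) := inferInstance
  let B₀ : Subgroup G := (B₁ : Subgroup R).map R.subtype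
  have hB₀p : IsPGroup q B₀ := B₁.isPGroup'.map _
  have hB₀R : B₀ ≤ R := Subgroup.map_subtype_le _
  have hdec := exists_dec_of_normalizes hNR hNP hPR hrelR B₁
  have hqT : q ∣ Nat.card T := by
    have h1 : L.relIndex T ∣ Nat.card T := Subgroup.relIndex_dvd_card _ _
    rw [hk] at h1
    exact (dvd_pow_self q hk0).trans h1
  have hne : ∃ b ∈ B₀, ∃ n ∈ N, b * n * b⁻¹ ≠ n := by
    by_contra hcon
    push Not at hcon
    have h1 : B₀ ≤ Y ⊓ Subgroup.centralizer (N : Set G) := by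
      refine le_inf (fun x hx => hBbT (hB₀R hx)) ?_
      intro b hb
      rw [Subgroup.mem_centralizer_iff]
      intro n hn
      have h2 := hcon b hb n hn
      calc n * b = (b * n * b⁻¹) * b := by rw [h2]
        _ = b * n := by group
    have hcop : (N.relIndex Y).Coprime p := by
      rw [hrel]
      exact (Nat.Prime.coprime_iff_not_dvd hp.out).mpr hTp |>.symm
    have h2 := centralizer_quot_le hcore N Y hNp hNab hNY hcop
    have h3 : B₀ = ⊥ := by
      rw [eq_bot_iff]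
      intro x hx
      exact (Subgroup.mem_bot).mpr (eq_one_of_two_pgroups hpq hNp hB₀p (h2 (h1 hx)) hx)
    -- then `R ≤ N`
    let N' : Subgroup R := N.subgroupOf R
    haveI hN'n : N'.Normal := Subgroup.Normal.subgroupOf hN R
    have hsup' : N' ⊔ (B₁ : Subgroup R) = ⊤ := sup_sylow_eq_top N' hrelR B₁
    have h4 : (B₁ : Subgroup R) = ⊥ := by
      have h5 : ((B₁ : Subgroup R).map R.subtype) = ⊥ := h3
      rwa [Subgroup.map_eq_bot_iff_of_injective _ R.subtype_injective] at h5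
    rw [h4, sup_bot_eq] at hsup'
    have h5 : Bb = ⊥ := by
      rw [eq_bot_iff]
      intro x hx
      obtain ⟨g, rfl⟩ := hπ x
      have h6 : (⟨g, hx⟩ : R) ∈ N' := by
        rw [hsup']
        trivial
      have h7 : g ∈ N := Subgroup.mem_subgroupOf.mp h6
      rw [← hker] at h7
      exact (Subgroup.mem_bot).mpr h7
    have h6 : (R₁ : Subgroup T) = ⊥ := by
      have h7 : ((R₁ : Subgroup T).map T.subtype) = ⊥ := h5
      rwa [Subgroup.map_eq_bot_iff_of_injective _ T.subtype_injective] at h7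
    have h7 := R₁.not_dvd_index
    rw [h6, Subgroup.index_bot] at h7
    exact h7 hqT
  obtain ⟨I, hPI, hIq, hBI⟩ := exists_inertia_of_layer hH N P B₀ hNp hNab hNP hPp hPi hB₀p hpq hdec hne
  apply hBI
  -- the image of the inertia group
  let It : Subgroup (G ⧸ N) := I.map π
  have hNI : N ≤ I := hNP.trans hPI
  have hcomap : It.comap π = I := by
    rw [Subgroup.comap_map_eq, hker, sup_eq_left.mpr hNI]
  have hIt : ¬ q ∣ It.index := by
    have h1 : (It.comap π).index = It.index := Subgroup.index_comap_of_surjective _ hπ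
    rw [← h1, hcomap]
    exact hIq
  have hAIt : (A : Subgroup (G ⧸ N)) ≤ It := by
    have h1 : P.map π = (A : Subgroup (G ⧸ N)) := Subgroup.map_comap_eq_self_of_surjective hπ _
    rw [← h1]
    exact Subgroup.map_mono hPI
  let D : Subgroup (G ⧸ N) := T ⊓ It
  have hnorm : ∀ s ∈ (A : Subgroup (G ⧸ N)), ∀ g ∈ D, s * g * s⁻¹ ∈ D := by
    intro s hs g hg
    exact ⟨hT.conj_mem g hg.1 s, It.mul_mem (It.mul_mem (hAIt hs) hg.2) (It.inv_mem (hAIt hs))⟩
  let φD := conjAct D (A : Subgroup (G ⧸ N)) hnorm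
  letI : MulDistribMulAction (A : Subgroup (G ⧸ N)) D := MulDistribMulAction.compHom D φD
  have hsmD : ∀ (a : (A : Subgroup (G ⧸ N))) (x : D), ((a • x : D) : G ⧸ N) = a * x * (a : G ⧸ N)⁻¹ :=
    fun a x => conjAct_apply D _ hnorm a x
  have hDp : ¬ p ∣ Nat.card D := fun hd => hTp (hd.trans (Subgroup.card_dvd_of_le inf_le_left))
  obtain ⟨R₃', hR₃'⟩ := Cfsg.Agent.Lib.PSolv.exists_fixed_sylow (p := q) (q := p) (D := D)
    (Γ := (A : Subgroup (G ⧸ N))) A.isPGroup' hDp
  let R₃ : Subgroup (G ⧸ N) := (R₃' : Subgroup D).map D.subtype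
  have hR₃D : R₃ ≤ D := Subgroup.map_subtype_le _
  have hR₃T : R₃ ≤ T := hR₃D.trans inf_le_left
  have hR₃p : IsPGroup q R₃ := R₃'.isPGroup'.map _
  have hS₃p : IsPGroup q (R₃.subgroupOf T) := hR₃p.comap_of_injective T.subtype T.subtype_injective
  have hS₃i : ¬ q ∣ (R₃.subgroupOf T).index := by
    have h1 : (R₃.subgroupOf T).index = R₃.relIndex T := rfl
    rw [h1, ← Subgroup.relIndex_mul_relIndex R₃ D T hR₃D inf_le_left]
    apply hq.out.not_dvd_mul
    · have h2 : R₃.relIndex D = (R₃' : Subgroup D).index := by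
        show (R₃.subgroupOf D).index = _
        congr 1
        exact Subgroup.comap_map_eq_self_of_injective D.subtype_injective _
      rw [h2]
      exact R₃'.not_dvd_index
    · have h2 : D.relIndex T = It.relIndex T := Subgroup.inf_relIndex_left _ _
      rw [h2]
      intro hd
      exact hIt (hd.trans (Cfsg.Agent.Lib.PSolv.relIndex_dvd_index_of_normal_right _ _))
  let S₃ : Sylow q T := hS₃p.toSylow hS₃i
  have hS₃coe : (S₃ : Subgroup T) = R₃.subgroupOf T := rfl
  have h₁ : ∀ a ∈ (A : Subgroup (G ⧸ N)), ∀ r : T, r ∈ R₁ → (⟨a * r * a⁻¹, hT.conj_mem r r.2 a⟩ : T) ∈ R₁ := by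
    intro a ha r hr
    have h1 : (r : G ⧸ N) ∈ Bb := ⟨r, hr, rfl⟩
    obtain ⟨r', hr', hr'e⟩ := (Subgroup.mem_normalizer_iff.mp (hA ha) _).mp h1
    have h2 : r' = ⟨a * r * a⁻¹, hT.conj_mem r r.2 a⟩ := Subtype.ext hr'e
    rw [← h2]
    exact hr'
  have h₂ : ∀ a ∈ (A : Subgroup (G ⧸ N)), ∀ r : T, r ∈ S₃ → (⟨a * r * a⁻¹, hT.conj_mem r r.2 a⟩ : T) ∈ S₃ := by
    intro a ha r hr
    have hr1 : (r : G ⧸ N) ∈ R₃ := Subgroup.mem_subgroupOf.mp (hS₃coe ▸ hr)
    obtain ⟨r', hr', hr'e⟩ := hr1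
    have h3 : (⟨a, ha⟩ : (A : Subgroup (G ⧸ N))) • r' ∈ (R₃' : Sylow q D) := by
      have h4 := hR₃' ⟨a, ha⟩
      rw [← h4, Cfsg.Agent.Lib.PSolv.mem_smul']
      simpa using hr'
    have h5 : ((⟨a * r * a⁻¹, hT.conj_mem r r.2 a⟩ : T) : G ⧸ N) ∈ R₃ := by
      refine ⟨_, h3, ?_⟩
      show (((⟨a, ha⟩ : (A : Subgroup (G ⧸ N))) • r' : D) : G ⧸ N) = a * r * a⁻¹
      rw [hsmD]
      show a * (r' : G ⧸ N) * a⁻¹ = _
      have h6 : (r' : G ⧸ N) = r := hr'e
      rw [h6]
    rw [← SetLike.mem_coe] 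
    show (⟨a * r * a⁻¹, hT.conj_mem r r.2 a⟩ : T) ∈ (S₃ : Subgroup T)
    rw [hS₃coe, Subgroup.mem_subgroupOf]
    exact h5
  have hequal : R₁ = S₃ := sylow_unique hHX L T hLT ⟨k, hk⟩ (A : Subgroup (G ⧸ N)) A.isPGroup' A.not_dvd_index hTp hLq
    R₁ S₃ h₁ h₂
  have hBbR₃ : Bb ≤ It := by
    have h1 : Bb = (S₃ : Subgroup T).map T.subtype := by
      show (R₁ : Subgroup T).map T.subtype = _
      rw [hequal]
    rw [h1, hS₃coe, Subgroup.subgroupOf_map_subtype]
    exact (inf_le_left.trans (hR₃D.trans inf_le_right))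
  have hRI : R ≤ I := by
    rw [← hcomap]
    exact Subgroup.comap_mono hBbR₃
  exact hB₀R.trans hRI

end Main

end Cfsg.Agent.Lib.TwoPrimes
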