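import Cfsg.Agent.Lib.CharExtra.Ito
import Cfsg.Agent.Lib.Coprime.CopDeg
import Cfsg.Agent.Lib.Core.Factor
import Mathlib

/-!
# Irreducible characters of degree prime to `p` over a given character of a subgroup.
-/

set_option autoImplicit false
set_option linter.unusedSectionVars false

namespace Cfsg.Agent.Lib.TwoPrimes

universe u

open Cfsg Cfsg.Agent.Lib.Char

variable {X : Type u} [Group X] [Fintype X]

/-- A character of degree prime to `p` has a constituent of degree prime to `p`. -/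
theorem exists_constituent_not_dvd {p : ℕ} [hp : Fact p.Prime] {ψ : X → ℂ} (hψ : IsCharacter X ψ)
    (hd : ¬ p ∣ charDegree ψ) :
    ∃ χ : IrrCharacter X, classInner ψ (χ : X → ℂ) ≠ 0 ∧ ¬ p ∣ charDegree (χ : X → ℂ) := by
  classical
  by_contra hcon
  push Not at hcon
  apply hd
  have h1 := classFunction_eq_sum ψ (IsCharacter.isClassFunction hψ)
  have h2 := congrFun h1 1
  rw [map_one_eq_charDegree hψ, Finset.sum_apply] at h2
  choose n hn using fun χ : IrrCharacter X => classInner_isCharacter_nat hψ (IsIrrCharacter.isCharacter χ.2)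
  have h3 : charDegree ψ = ∑ χ : IrrCharacter X, n χ * charDegree (χ : X → ℂ) := by
    have h4 : ((charDegree ψ : ℕ) : ℂ) = ((∑ χ : IrrCharacter X, n χ * charDegree (χ : X → ℂ) : ℕ) : ℂ) := by
      rw [h2]
      push_cast
      refine Finset.sum_congr rfl fun χ _ => ?_
      rw [Pi.smul_apply, hn χ, smul_eq_mul, map_one_eq_charDegree (IsIrrCharacter.isCharacter χ.2)]
    exact_mod_cast h4
  rw [h3]
  refine Finset.dvd_sum fun χ _ => ?_
  by_cases h0 : n χ = 0
  · rw [h0, zero_mul]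
    exact dvd_zero _
  · refine Dvd.dvd.mul_left (hcon χ ?_) _
    rw [hn χ]
    exact_mod_cast h0

/-- Constituents of constituents. -/
theorem over_trans {L M : Subgroup X} [Fintype L] [Fintype M] (hLM : L ≤ M) {χ : X → ℂ} (hχ : IsCharacter X χ)
    {τ : M → ℂ} (hτ : IsIrrCharacter M τ) {θ : L → ℂ} (hθ : IsCharacter L θ)
    (h1 : classInner (fun m : M => χ m) τ ≠ 0) (h2 : classInner (fun l : L => τ ⟨l, hLM l.2⟩) θ ≠ 0) :
    classInner (fun l : L => χ l) θ ≠ 0 := by
  classical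
  have hres : IsCharacter M (fun m : M => χ m) := IsCharacter.restrict M hχ
  have hexp := classFunction_eq_sum (fun m : M => χ m) (IsCharacter.isClassFunction hres)
  choose n hn using fun σ : IrrCharacter M => classInner_isCharacter_nat hres (IsIrrCharacter.isCharacter σ.2)
  have hσ : ∀ σ : IrrCharacter M, IsCharacter L (fun l : L => (σ : M → ℂ) ⟨l, hLM l.2⟩) := fun σ =>
    IsCharacter.comp (Subgroup.inclusion hLM) (IsIrrCharacter.isCharacter σ.2)
  choose m hm using fun σ : IrrCharacter M => classInner_isCharacter_nat (hσ σ) hθ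
  have h3 : (fun l : L => χ l) = ∑ σ : IrrCharacter M, (n σ : ℂ) • (fun l : L => (σ : M → ℂ) ⟨l, hLM l.2⟩) := by
    funext l
    have h4 := congrFun hexp ⟨l, hLM l.2⟩
    rw [Finset.sum_apply] at h4 ⊢
    refine h4.trans (Finset.sum_congr rfl fun σ _ => ?_)
    rw [hn σ]
    rfl
  rw [h3, classInner_sum_left]
  have h5 : ∑ σ : IrrCharacter M, classInner ((n σ : ℂ) • (fun l : L => (σ : M → ℂ) ⟨l, hLM l.2⟩)) θ =
      ((∑ σ : IrrCharacter M, n σ * m σ : ℕ) : ℂ) := by
    push_cast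
    refine Finset.sum_congr rfl fun σ _ => ?_
    rw [classInner_smul_left, hm σ]
  rw [h5]
  have h6 : (∑ σ : IrrCharacter M, n σ * m σ) ≠ 0 := by
    intro h0
    have h7 := (Finset.sum_eq_zero_iff.mp h0) ⟨τ, hτ⟩ (Finset.mem_univ _)
    rcases Nat.mul_eq_zero.mp h7 with h8 | h8
    · apply h1
      have h9 := hn ⟨τ, hτ⟩
      rw [h8] at h9
      simpa using h9
    · apply h2
      have h9 := hm ⟨τ, hτ⟩
      rw [h8] at h9
      simpa using h9
  exact_mod_cast h6

/-- Characters of `p'`-degree over an irreducible character of `p'`-degree of a subgroup of `p'`-index. -/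
theorem exists_over_of_ind {p : ℕ} [hp : Fact p.Prime] {L M : Subgroup X} [Fintype L] [Fintype M] (hLM : L ≤ M)
    {τ : M → ℂ} (hτ : IsIrrCharacter M τ) {θ : L → ℂ} (hθ : IsIrrCharacter L θ)
    (hres : ∀ l : L, τ ⟨l, hLM l.2⟩ = θ l) (hM : ¬ p ∣ M.index) (hτd : ¬ p ∣ charDegree τ) :
    ∃ χ : IrrCharacter X, ¬ p ∣ charDegree (χ : X → ℂ) ∧ classInner (fun l : L => (χ : X → ℂ) l) θ ≠ 0 := by
  classical
  have hind := indFun_isCharacter M (IsIrrCharacter.isCharacter hτ)
  have hdeg : charDegree (indFun M τ) = M.index * charDegree τ := by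
    apply Cfsg.Agent.Lib.Coprime.charDegree_of_eq
    rw [indFun_one, map_one_eq_charDegree (IsIrrCharacter.isCharacter hτ)]
    push_cast
    rfl
  obtain ⟨χ, h1, h2⟩ := exists_constituent_not_dvd (p := p) hind (by
    rw [hdeg]
    exact hp.out.not_dvd_mul hM hτd)
  refine ⟨χ, h2, ?_⟩
  have hχ := IsIrrCharacter.isCharacter χ.2
  refine over_trans hLM hχ hτ (IsIrrCharacter.isCharacter hθ) ?_ ?_
  · rw [frobenius_reciprocity M τ _ (IsCharacter.isClassFunction hχ)] at h1
    rw [← conj_classInner]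
    simpa using h1
  · have h3 : (fun l : L => τ ⟨l, hLM l.2⟩) = θ := funext hres
    rw [h3, classInner_irr_self hθ]
    exact one_ne_zero

/-- Characters of `p'`-degree over a character, invariant in a Sylow `p`-subgroup, of a normal `p'`-subgroup. -/
theorem exists_over_of_inv {p : ℕ} [hp : Fact p.Prime] (L : Subgroup X) [hL : L.Normal] [Fintype L] (A : Subgroup X)
    (hAp : IsPGroup p A) (hAi : ¬ p ∣ A.index) (hLp : ¬ p ∣ Nat.card L) {θ : L → ℂ} (hθ : IsIrrCharacter L θ)
    (hinv : ∀ a ∈ A, ∀ l : L, θ ⟨a * l * a⁻¹, hL.conj_mem l l.2 a⟩ = θ l) :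
    ∃ χ : IrrCharacter X, ¬ p ∣ charDegree (χ : X → ℂ) ∧ classInner (fun l : L => (χ : X → ℂ) l) θ ≠ 0 := by
  classical
  let M : Subgroup X := L ⊔ A
  letI : Fintype M := Fintype.ofFinite _
  have hLM : L ≤ M := le_sup_left
  let K : Subgroup M := L.subgroupOf M
  haveI hKn : K.Normal := Subgroup.Normal.subgroupOf hL M
  have hKmem : ∀ n : K, ((n : M) : X) ∈ L := fun n => Subgroup.mem_subgroupOf.mp n.2
  let e : K ≃* L := Subgroup.subgroupOfEquivOfLe hLM
  have he : ∀ n : K, ((e n : L) : X) = ((n : M) : X) := fun _ => rfl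
  let ϑ : K → ℂ := θ ∘ e
  have hϑ : IsIrrCharacter K ϑ := Cfsg.Agent.Lib.Char.isIrr_comp_equiv e hθ
  have hcl : IsClassFunction L θ := IsCharacter.isClassFunction (IsIrrCharacter.isCharacter hθ)
  have hinv' : ∀ (g : M) (n : K), ϑ ⟨g * n * g⁻¹, hKn.conj_mem (n : M) n.2 g⟩ = ϑ n := by
    intro g n
    obtain ⟨l, hl, a, ha, hg⟩ := Cfsg.Agent.Lib.Core.exists_mul_of_mem_sup_normal_left (N := L) (H := A) g.2
    show θ (e _) = θ (e n)
    have h1 := hinv a ha (e n)
    have h2 := hcl ⟨a * (e n : L) * a⁻¹, hL.conj_mem _ (e n).2 a⟩ ⟨l, hl⟩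
    have h3 : e ⟨g * n * g⁻¹, hKn.conj_mem (n : M) n.2 g⟩ =
        ⟨l, hl⟩ * ⟨a * (e n : L) * a⁻¹, hL.conj_mem _ (e n).2 a⟩ * (⟨l, hl⟩ : L)⁻¹ := by
      apply Subtype.ext
      show ((g : X) * ((n : M) : X) * (g : X)⁻¹) = l * (a * ((n : M) : X) * a⁻¹) * l⁻¹
      rw [hg]
      group
    rw [h3, h2, h1]
  have hidx : K.index.Coprime (Nat.card K) := by
    have h1 : K.index = L.relIndex M := rfl
    have h2 : L.relIndex M = L.relIndex A := Subgroup.relIndex_sup_left A L
    have h3 : L.relIndex A ∣ Nat.card A := Subgroup.relIndex_dvd_card _ _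
    have h4 : Nat.card K = Nat.card L := Nat.card_congr e.toEquiv
    obtain ⟨k, hk⟩ := IsPGroup.iff_card.mp hAp
    rw [h1, h2, h4]
    refine Nat.Coprime.coprime_dvd_left h3 ?_
    rw [hk]
    exact Nat.Coprime.pow_left _ ((Nat.Prime.coprime_iff_not_dvd hp.out).mpr hLp)
  obtain ⟨τ, hτ, hext⟩ := Cfsg.Agent.Lib.Coprime.exists_ext_of_coprime K hidx hϑ hinv'
  have hres : ∀ l : L, τ ⟨l, hLM l.2⟩ = θ l := by
    intro l
    have h1 := hext ⟨⟨l, hLM l.2⟩, Subgroup.mem_subgroupOf.mpr l.2⟩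
    exact h1
  refine exists_over_of_ind hLM hτ hθ hres ?_ ?_
  · intro hd
    exact hAi (hd.trans (Subgroup.index_dvd_of_le le_sup_right))
  · have h1 : charDegree τ = charDegree θ := by
      have h2 := map_one_eq_charDegree (IsIrrCharacter.isCharacter hτ)
      have h3 := map_one_eq_charDegree (IsIrrCharacter.isCharacter hθ)
      have h4 : τ 1 = θ 1 := hres 1
      rw [h2, h3] at h4
      exact_mod_cast h4
    rw [h1]
    intro hd
    exact hLp (hd.trans (charDegree_dvd_card hθ))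

end Cfsg.Agent.Lib.TwoPrimes
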