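import Cfsg.Agent.Lib.TwoPrimes.Key
import Cfsg.Agent.Lib.TwoPrimes.Over
import Cfsg.Agent.Lib.PSolv.Glauberman
import Cfsg.Agent.Lib.Techniques.ExtCtl
import Mathlib

/-!
# Uniqueness of an invariant Sylow subgroup of a group of shape `q'`-by-`q`.
-/

set_option autoImplicit false
set_option linter.unusedSectionVars false

namespace Cfsg.Agent.Lib.TwoPrimes

universe u

open Cfsg Cfsg.Agent.Lib.Char Cfsg.Agent.Lib.Coprime

/-- All `p'`-degree characters of `X` have `q'`-degree. -/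
def DegHyp (p q : ℕ) (X : Type u) [Group X] : Prop :=
  ∀ χ : IrrCharacter X, ¬ p ∣ charDegree (χ : X → ℂ) → ¬ q ∣ charDegree (χ : X → ℂ)

section Uniq

variable {X : Type u} [Group X] [Fintype X] {p q : ℕ} [hp : Fact p.Prime] [hq : Fact q.Prime]

/-- An `A`-invariant character of `L` is `T`-invariant. -/
theorem inertia_of_inv (hH : DegHyp p q X) (L T : Subgroup X) [hL : L.Normal] [hT : T.Normal] [Fintype L]
    (hrel : ∃ k, L.relIndex T = q ^ k) (A : Subgroup X) (hAp : IsPGroup p A) (hAi : ¬ p ∣ A.index)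
    (hLp : ¬ p ∣ Nat.card L) {θ : L → ℂ} (hθ : IsIrrCharacter L θ)
    (hinv : ∀ a ∈ A, ∀ l : L, θ ⟨a * l * a⁻¹, hL.conj_mem l l.2 a⟩ = θ l) :
    T ≤ inertia hL θ := by
  obtain ⟨χ, h1, h2⟩ := exists_over_of_inv L A hAp hAi hLp hθ hinv
  have h3 := hH χ h1
  have h4 := Cfsg.Agent.Lib.CharExtra.inertia_index_mul_degree_dvd L hL χ.2 hθ h2
  have h5 : ¬ q ∣ (inertia hL θ).index := fun hd => h3 (hd.trans ((Dvd.intro _ rfl).trans h4))
  have hLI : L ≤ inertia hL θ := le_inertia hL (IsCharacter.isClassFunction (IsIrrCharacter.isCharacter hθ))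
  obtain ⟨k, hk⟩ := hrel
  have h6 : (inertia hL θ).relIndex T ∣ q ^ k := by
    rw [← hk]
    exact Subgroup.relIndex_dvd_of_le_left T hLI
  obtain ⟨i, -, hi⟩ := (Nat.dvd_prime_pow hq.out).1 h6
  have h7 : (inertia hL θ).relIndex T ∣ (inertia hL θ).index :=
    Cfsg.Agent.Lib.PSolv.relIndex_dvd_index_of_normal_right _ _
  have h8 : (inertia hL θ).relIndex T = 1 := by
    rw [hi] at h7 ⊢
    cases i with
    | zero => simp
    | succ i =>
      exfalso
      exact h5 ((dvd_pow_self q (Nat.succ_ne_zero i)).trans h7)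
  exact Subgroup.relIndex_eq_one.mp h8

/-- The consequence of the Glauberman correspondence. -/
theorem fix_of_fix (hH : DegHyp p q X) (L T : Subgroup X) [hL : L.Normal] [hT : T.Normal] [Fintype L]
    (hrel : ∃ k, L.relIndex T = q ^ k) (A : Subgroup X) (hAp : IsPGroup p A) (hAi : ¬ p ∣ A.index)
    (hLp : ¬ p ∣ Nat.card L) (hLq : ¬ q ∣ Nat.card L) (B : Subgroup X) (hBT : B ≤ T) (hBq : IsPGroup q B)
    (hAB : A ≤ Subgroup.normalizer (B : Set X)) {l : X} (hl : l ∈ L) (hfix : ∀ a ∈ A, a * l * a⁻¹ = l) :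
    ∀ b ∈ B, b * l * b⁻¹ = l := by
  classical
  let S : Subgroup X := A ⊔ B
  have hSn : S ≤ Subgroup.normalizer (B : Set X) := sup_le hAB Subgroup.le_normalizer
  let B' : Subgroup S := B.subgroupOf S
  haveI hB'n : B'.Normal := by
    constructor
    intro n hn g
    rw [Subgroup.mem_subgroupOf] at hn ⊢
    have h1 := (Subgroup.mem_normalizer_iff.mp (hSn g.2) (n : X)).mp hn
    simpa using h1
  have hB'p : IsPGroup q B' := hBq.comap_of_injective S.subtype S.subtype_injective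
  -- the quotient is a `p`-group
  let πS : S →* S ⧸ B' := QuotientGroup.mk' B'
  let inA : A →* S := Subgroup.inclusion (le_sup_left : A ≤ S)
  have hsurj : Function.Surjective (πS.comp inA) := by
    intro x
    obtain ⟨s, rfl⟩ := QuotientGroup.mk_surjective x
    have hs : (s : X) ∈ B ⊔ A := by
      have h1 : (B ⊔ A : Subgroup X) = S := sup_comm _ _
      rw [h1]
      exact s.2
    obtain ⟨n, hn, r, hr, hnr⟩ :=
      (Cfsg.Agent.Lib.Techniques.mem_sup_of_le_normalizer (N := B) (P := A) hAB).1 hs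
    refine ⟨⟨r, hr⟩, ?_⟩
    show (QuotientGroup.mk (inA ⟨r, hr⟩) : S ⧸ B') = QuotientGroup.mk s
    rw [QuotientGroup.eq, Subgroup.mem_subgroupOf]
    have h2 := (Subgroup.mem_normalizer_iff.mp (hAB (A.inv_mem hr)) n).mp hn
    have h3 : (((inA ⟨r, hr⟩)⁻¹ * s : S) : X) = r⁻¹ * n * r⁻¹⁻¹ := by
      show r⁻¹ * (s : X) = _
      rw [hnr]
      group
    rw [h3]
    exact h2
  have hQp : IsPGroup p (S ⧸ B') := hAp.of_surjective _ hsurj
  have hsol : Group.IsSolvable S := by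
    haveI := hB'p.isNilpotent
    haveI := hQp.isNilpotent
    refine solvable_of_ker_le_range B'.subtype πS ?_
    rw [QuotientGroup.ker_mk', Subgroup.range_subtype]
  have hcop : (Nat.card L).Coprime (Nat.card S) := by
    rw [Subgroup.card_eq_card_quotient_mul_card_subgroup B']
    obtain ⟨i, hi⟩ := IsPGroup.iff_card.mp hQp
    obtain ⟨j, hj⟩ := IsPGroup.iff_card.mp hB'p
    rw [hi, hj]
    apply Nat.Coprime.mul_right
    · exact Nat.Coprime.pow_right _ ((Nat.Prime.coprime_iff_not_dvd hp.out).mpr hLp).symm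
    · exact Nat.Coprime.pow_right _ ((Nat.Prime.coprime_iff_not_dvd hq.out).mpr hLq).symm
  let φ : S →* MulAut L := (MulAut.conjNormal (H := L)).comp S.subtype
  have hφ : ∀ (s : S) (y : L), φ s y = ⟨s * y * (s : X)⁻¹, hL.conj_mem y y.2 s⟩ := fun s y =>
    Subtype.ext (MulAut.conjNormal_apply (s : X) y)
  have hinv : ∀ χ : IrrCharacter L, IsInv (φ.comp (A.subgroupOf S).subtype) (χ : L → ℂ) → IsInv φ (χ : L → ℂ) := by
    intro χ hχ
    have hinv' : ∀ a ∈ A, ∀ l : L, (χ : L → ℂ) ⟨a * l * a⁻¹, hL.conj_mem l l.2 a⟩ = (χ : L → ℂ) l := by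
      intro a ha l
      have h1 := hχ ⟨⟨a, le_sup_left (a := A) ha⟩, Subgroup.mem_subgroupOf.mpr ha⟩ l
      have h2 : (φ.comp (A.subgroupOf S).subtype ⟨⟨a, le_sup_left (a := A) ha⟩, Subgroup.mem_subgroupOf.mpr ha⟩) l =
          ⟨a * l * a⁻¹, hL.conj_mem l l.2 a⟩ := hφ _ l
      rw [h2] at h1
      exact h1
    have hTI := inertia_of_inv hH L T hrel A hAp hAi hLp χ.2 hinv'
    have hAI : A ≤ inertia hL (χ : L → ℂ) := fun a ha => (mem_inertia_iff hL _ a).mpr (hinv' a ha)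
    have hSI : S ≤ inertia hL (χ : L → ℂ) := sup_le hAI (hBT.trans hTI)
    intro s y
    rw [hφ]
    exact (mem_inertia_iff hL _ (s : X)).mp (hSI s.2) y
  have hfix' : ∀ a ∈ A.subgroupOf S, φ a ⟨l, hl⟩ = ⟨l, hl⟩ := by
    intro a ha
    rw [hφ]
    apply Subtype.ext
    exact hfix _ (Subgroup.mem_subgroupOf.mp ha)
  intro b hb
  have h1 := key_fix φ (A.subgroupOf S) hsol hcop hinv ⟨l, hl⟩ hfix' ⟨b, le_sup_right (b := B) hb⟩
  rw [hφ] at h1
  exact congrArg Subtype.val h1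

/-- **Uniqueness** of the invariant Sylow subgroup. -/
theorem sylow_unique (hH : DegHyp p q X) (L T : Subgroup X) [hL : L.Normal] [hT : T.Normal] [Fintype L]
    (hLT : L ≤ T) (hrel : ∃ k, L.relIndex T = q ^ k) (A : Subgroup X) (hAp : IsPGroup p A) (hAi : ¬ p ∣ A.index)
    (hTp : ¬ p ∣ Nat.card T) (hLq : ¬ q ∣ Nat.card L) (R₁ R₂ : Sylow q T)
    (h₁ : ∀ a ∈ A, ∀ r : T, r ∈ R₁ → (⟨a * r * a⁻¹, hT.conj_mem r r.2 a⟩ : T) ∈ R₁)
    (h₂ : ∀ a ∈ A, ∀ r : T, r ∈ R₂ → (⟨a * r * a⁻¹, hT.conj_mem r r.2 a⟩ : T) ∈ R₂) : R₁ = R₂ := by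
  classical
  letI := Cfsg.Agent.Lib.PSolv.conjAction A T
  have hsm : ∀ (a : A) (x : T), ((a • x : T) : X) = (a : X) * x * (a : X)⁻¹ := fun a x =>
    Cfsg.Agent.Lib.PSolv.conjAction_smul_coe A T a x
  have hLp : ¬ p ∣ Nat.card L := fun hd => hTp (hd.trans (Subgroup.card_dvd_of_le hLT))
  have hfixR : ∀ R : Sylow q T, (∀ a ∈ A, ∀ r : T, r ∈ R → (⟨a * r * a⁻¹, hT.conj_mem r r.2 a⟩ : T) ∈ R) →
      ∀ a : A, a • R = R := by
    intro R hR a
    apply Sylow.ext
    ext x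
    change x ∈ (a • R : Sylow q T) ↔ x ∈ R
    rw [Cfsg.Agent.Lib.PSolv.mem_smul']
    constructor
    · intro hx
      have h1 := hR a a.2 _ hx
      have h2 : (⟨a * ((a⁻¹ • x : T) : X) * (a : X)⁻¹, hT.conj_mem _ (a⁻¹ • x : T).2 a⟩ : T) = x := by
        apply Subtype.ext
        show (a : X) * ((a⁻¹ • x : T) : X) * (a : X)⁻¹ = x
        rw [hsm]
        simp
        group
      rwa [h2] at h1
    · intro hx
      have h1 := hR _ (a⁻¹).2 _ hx
      have h2 : (⟨(a⁻¹ : A) * (x : X) * ((a⁻¹ : A) : X)⁻¹, hT.conj_mem _ x.2 _⟩ : T) = a⁻¹ • x := by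
        apply Subtype.ext
        rw [hsm]
      rwa [h2] at h1
  obtain ⟨c, hcfix, hc⟩ := Cfsg.Agent.Lib.PSolv.exists_fixed_conj (p := q) (q := p) hAp hTp R₁ R₂ (hfixR R₁ h₁) (hfixR R₂ h₂)
  -- the decomposition
  let L' : Subgroup T := L.subgroupOf T
  haveI hL'n : L'.Normal := Subgroup.Normal.subgroupOf hL T
  have hL'q : ∀ x ∈ L', ∀ y ∈ (R₁ : Subgroup T), x = y → x = 1 := by
    intro x hx y hy hxy
    have h1 : orderOf (x : X) ∣ Nat.card L := by
      have h2 := orderOf_dvd_natCard (⟨x, Subgroup.mem_subgroupOf.mp hx⟩ : L)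
      rwa [Subgroup.orderOf_mk] at h2
    obtain ⟨k, hk⟩ := (IsPGroup.iff_orderOf.mp R₁.isPGroup') ⟨y, hy⟩
    rw [Subgroup.orderOf_mk] at hk
    have h3 : orderOf (x : X) = orderOf x := Subgroup.orderOf_coe x
    rw [h3, hxy, hk] at h1
    cases k with
    | zero =>
      have h4 : orderOf y = 1 := by simpa using hk
      rw [hxy]
      exact orderOf_eq_one_iff.mp h4
    | succ k =>
      exfalso
      exact hLq ((dvd_pow_self q (Nat.succ_ne_zero k)).trans h1)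
  have hsup : L' ⊔ (R₁ : Subgroup T) = ⊤ := by
    rw [← Subgroup.index_eq_one]
    obtain ⟨k, hk⟩ := hrel
    have h1 : (L' ⊔ (R₁ : Subgroup T)).index ∣ q ^ k := by
      rw [← hk]
      exact Subgroup.index_dvd_of_le le_sup_left
    have h2 : (L' ⊔ (R₁ : Subgroup T)).index ∣ (R₁ : Subgroup T).index := Subgroup.index_dvd_of_le le_sup_right
    obtain ⟨i, -, hi⟩ := (Nat.dvd_prime_pow hq.out).1 h1
    rw [hi] at h2 ⊢
    cases i with
    | zero => simp
    | succ i =>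
      exfalso
      exact R₁.not_dvd_index ((dvd_pow_self q (Nat.succ_ne_zero i)).trans h2)
  obtain ⟨l, hl, b, hb, hcd⟩ := Cfsg.Agent.Lib.Core.exists_mul_of_mem_sup_normal_left (N := L') (H := (R₁ : Subgroup T))
    (x := c) (by rw [hsup]; trivial)
  -- both components are fixed
  have hlfix : ∀ a ∈ A, a * (l : X) * a⁻¹ = l := by
    intro a ha
    have h1 := hcfix ⟨a, ha⟩
    rw [hcd] at h1
    have h2 : ((⟨a, ha⟩ : A) • l : T) * ((⟨a, ha⟩ : A) • b : T) = l * b := by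
      rw [← h1, smul_mul']
    have h3 : (⟨a * (b : X) * a⁻¹, hT.conj_mem b b.2 a⟩ : T) ∈ (R₁ : Subgroup T) := h₁ a ha b hb
    have h4 : ((⟨a, ha⟩ : A) • b : T) = ⟨a * (b : X) * a⁻¹, hT.conj_mem b b.2 a⟩ := Subtype.ext (hsm _ _)
    have h5 : l⁻¹ * ((⟨a, ha⟩ : A) • l : T) = b * ((⟨a, ha⟩ : A) • b : T)⁻¹ := by
      have h50 : ((⟨a, ha⟩ : A) • l : T) = l * b * ((⟨a, ha⟩ : A) • b : T)⁻¹ := eq_mul_inv_of_mul_eq h2
      rw [h50]
      group
    have h6 : ((⟨a, ha⟩ : A) • l : T) ∈ L' := by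
      rw [Subgroup.mem_subgroupOf, hsm]
      exact hL.conj_mem _ (Subgroup.mem_subgroupOf.mp hl) a
    have h7 := hL'q _ (L'.mul_mem (L'.inv_mem hl) h6) _
      ((R₁ : Subgroup T).mul_mem hb ((R₁ : Subgroup T).inv_mem (by rw [h4]; exact h3))) h5
    have h8 : ((⟨a, ha⟩ : A) • l : T) = l := by
      have := inv_mul_eq_one.mp h7
      exact this.symm
    have h9 := congrArg Subtype.val h8
    rwa [hsm] at h9
  have hR₁q : IsPGroup q ((R₁ : Subgroup T).map T.subtype) := R₁.isPGroup'.map _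
  have hAnorm : A ≤ Subgroup.normalizer (((R₁ : Subgroup T).map T.subtype : Subgroup X) : Set X) := by
    intro a ha
    rw [Subgroup.mem_normalizer_iff]
    intro x
    constructor
    · rintro ⟨r, hr, rfl⟩
      refine ⟨_, h₁ a ha r hr, rfl⟩
    · rintro ⟨r, hr, hrx⟩
      have h1 : (T.subtype r : X) = a * x * a⁻¹ := hrx
      have hx : x ∈ T := by
        have h2 := hT.conj_mem r r.2 a⁻¹
        have h3 : a⁻¹ * (r : X) * a⁻¹⁻¹ = x := by
          have h4 : (r : X) = a * x * a⁻¹ := h1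
          rw [h4]
          group
        rwa [h3] at h2
      refine ⟨⟨x, hx⟩, ?_, rfl⟩
      have h2 := h₁ _ (A.inv_mem ha) r hr
      have h3 : (⟨a⁻¹ * (r : X) * a⁻¹⁻¹, hT.conj_mem r r.2 a⁻¹⟩ : T) = ⟨x, hx⟩ := by
        apply Subtype.ext
        have h4 : (r : X) = a * x * a⁻¹ := h1
        show a⁻¹ * (r : X) * a⁻¹⁻¹ = x
        rw [h4]
        group
      rwa [h3] at h2
  have hcomm := fix_of_fix hH L T hrel A hAp hAi hLp hLq _ (Subgroup.map_subtype_le _) hR₁q hAnorm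
    (Subgroup.mem_subgroupOf.mp hl) hlfix
  -- conclusion
  have hle : (R₁ : Subgroup T) ≤ (R₂ : Subgroup T) := by
    intro x hx
    rw [← hc]
    change x ∈ (c • R₁ : Sylow q T)
    rw [Cfsg.Agent.Lib.PSolv.mem_conj_smul, hcd]
    have h1 : (l * b)⁻¹ * x * (l * b) = b⁻¹ * x * b := by
      have h2 : l⁻¹ * x * l = x := by
        apply Subtype.ext
        have h3 := hcomm (x : X) ⟨x, hx, rfl⟩
        have h4 : (x : X) * (l : X) = l * x := by
          calc (x : X) * (l : X) = ((x : X) * (l : X) * (x : X)⁻¹) * x := by group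
            _ = l * x := by rw [h3]
        show (l : X)⁻¹ * x * l = x
        rw [mul_assoc, h4]
        group
      calc (l * b)⁻¹ * x * (l * b) = b⁻¹ * (l⁻¹ * x * l) * b := by group
        _ = b⁻¹ * x * b := by rw [h2]
    rw [h1]
    exact (R₁ : Subgroup T).mul_mem ((R₁ : Subgroup T).mul_mem ((R₁ : Subgroup T).inv_mem hb) hx) hb
  exact Sylow.ext (R₁.3 R₂.2 hle).symm

end Uniq

end Cfsg.Agent.Lib.TwoPrimes
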